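import Cfsg.Agent.H56.OrthMat
import Cfsg.Prelude.Def_FischerSpaces

/-! E7MAX (row S5934), chapter FI, the reflection groups over the field with three elements: if
`127` divides the order of the projective reflection group, then so does `23`. -/

set_option autoImplicit false

namespace H84.E7F3

open QuadraticMap Cfsg H56

/-- a prime that divides the order of `GL_n(q)` divides some `q ^ n - q ^ i` -/
theorem dvd_GL {F : Type*} [Field F] [Fintype F] {n p : ℕ} (hp : p.Prime)
    (h : p ∣ Nat.card (GL (Fin n) F)) : ∃ i < n, p ∣ Fintype.card F ^ n - Fintype.card F ^ i := by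
  rw [Matrix.card_GL_field] at h
  obtain ⟨i, -, hi⟩ := (Prime.dvd_finsetProd_iff hp.prime _).1 h
  exact ⟨i, i.2, hi⟩

theorem big {n : ℕ} (h : 127 ∣ Nat.card (GL (Fin n) (ZMod 3))) : 92 ≤ n := by
  obtain ⟨i, hi, h⟩ := dvd_GL (by norm_num) h
  rw [ZMod.card] at h
  by_contra! hn
  exact (by decide +kernel : ∀ n < 92, ∀ i < n, ¬ 127 ∣ 3 ^ n - 3 ^ i) n hn i hi h

section

variable {V : Type*} [AddCommGroup V] [Module (ZMod 3) V] {Q : QuadraticForm (ZMod 3) V}

/-- `23` pairwise perpendicular vectors of norm `-c` -/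
theorem frame [FiniteDimensional (ZMod 3) V] (hQ : Q.polarBilin.Nondegenerate) {c : ZMod 3}
    (hc : c ≠ 0) (hn : 92 ≤ Module.finrank (ZMod 3) V) : ∃ f : ZMod 23 → V,
    (∀ i, Q (f i) = -c) ∧ ∀ i j, i ≠ j → polar Q (f i) (f j) = 0 := by
  classical
  let _ : Invertible (2 : ZMod 3) := invertibleOfNonzero (by decide)
  obtain ⟨v, hv⟩ := LinearMap.BilinForm.exists_orthogonal_basis (B := Q.polarBilin)
    ⟨fun x y => polar_comm Q x y⟩
  have h0 : ∀ i, Q (v i) ≠ 0 := fun i h => hv.not_isOrtho_basis_self_of_separatingLeft hQ.1 i (by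
    rw [polarBilin_apply_apply, polar_self', h, mul_zero])
  have h1 : ∀ i, Q (v i) = c ∨ Q (v i) = -c := fun i =>
    (by decide : ∀ a c : ZMod 3, a ≠ 0 → c ≠ 0 → a = c ∨ a = -c) _ _ (h0 i) hc
  have ho : ∀ i j, i ≠ j → polar Q (v i) (v j) = 0 := fun i j h => hv h
  obtain ⟨a, ha, hcard⟩ : ∃ a, (a = c ∨ a = -c) ∧ 46 ≤ Fintype.card {i // Q (v i) = a} := by
    by_contra! h
    have e1 := h c (.inl rfl)
    have e2 := h (-c) (.inr rfl)
    have e3 : Fintype.card {i // ¬ Q (v i) = c} ≤ Fintype.card {i // Q (v i) = -c} :=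
      Fintype.card_subtype_mono _ _ fun i hi => (h1 i).resolve_left hi
    rw [Fintype.card_subtype_compl, Fintype.card_fin] at e3
    omega
  obtain ⟨e⟩ : Nonempty (ZMod 23 × Bool ↪ {i // Q (v i) = a}) :=
    Function.Embedding.nonempty_of_card_le (by simpa using hcard)
  have he : ∀ x y, x ≠ y → polar Q (v (e x)) (v (e y)) = 0 := fun x y h =>
    ho _ _ fun k => h (e.injective (Subtype.ext k))
  rcases ha with rfl | rfl
  · refine ⟨fun i => v (e (i, false)) + v (e (i, true)), fun i => ?_, fun i j h => ?_⟩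
    · rw [Q_add, (e _).2, (e _).2, he _ _ (by simp)]
      exact (by decide : ∀ a : ZMod 3, a + a + 0 = -a) a
    · simp only [polar_add_left, polar_add_right]
      rw [he, he, he, he] <;> simp [h]
  · exact ⟨fun i => v (e (i, false)), fun i => (e _).2, fun i j h => he _ _ (by simp [h])⟩

variable {c : ZMod 3} {f : ZMod 23 → V} (hc : c ≠ 0) (h1 : ∀ i, Q (f i) = -c)
  (h2 : ∀ i j, i ≠ j → polar Q (f i) (f j) = 0)

include h1 h2 in
theorem norm_sub {i j : ZMod 23} (h : i ≠ j) : Q (f i - f j) = c := by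
  rw [Q_sub, h1, h1, h2 i j h]
  exact (by decide : ∀ a : ZMod 3, -a + -a - 0 = a) c

include hc h1 h2 in
theorem refl_swap {i j : ZMod 23} (h : i ≠ j) (k : ZMod 23) :
    refl Q (f i - f j) (f k) = f (Equiv.swap i j k) := by
  have e : refl Q (f i - f j) (f i) = f j :=
    refl_sub_apply (by rw [h1, h1]) (by rw [norm_sub h1 h2 h]; exact hc)
  by_cases hi : k = i
  · rw [hi, e, Equiv.swap_apply_left]
  by_cases hj : k = j
  · rw [hj, Equiv.swap_apply_right]
    exact (congrArg (refl Q (f i - f j)) e).symm.trans (refl_refl _ _)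
  · rw [Equiv.swap_apply_of_ne_of_ne hi hj, refl_apply_of_orth]
    rw [polar_sub_left, h2 _ _ (Ne.symm hi), h2 _ _ (Ne.symm hj), sub_zero]

include hc h1 h2 in
theorem frame_inj : Function.Injective f := fun i j e => by
  by_contra h
  have := h2 i j h
  rw [e, polar_self', h1] at this
  exact hc ((by decide : ∀ a : ZMod 3, 2 * -a = 0 → a = 0) c this)

end

/-- The case of the reflection groups over the field with three elements. -/
theorem f3 (n : ℕ) (Q : QuadraticForm (ZMod 3) (Fin n → ZMod 3))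
    (hQ : (QuadraticMap.polarBilin Q).Nondegenerate) (c : ZMod 3) (hc : c ≠ 0)
    (h : 127 ∣ Nat.card (↥(reflectionSubgroup (⇑Q) c) ⧸
      Subgroup.center ↥(reflectionSubgroup (⇑Q) c))) :
    23 ∣ Nat.card (↥(reflectionSubgroup (⇑Q) c) ⧸ Subgroup.center ↥(reflectionSubgroup (⇑Q) c)) := by
  have hn := big (h.trans ((Subgroup.card_quotient_dvd_card _).trans
    ((Subgroup.card_subgroup_dvd_card _).trans (Subgroup.card_subgroup_dvd_card _))))
  obtain ⟨f, h1, h2⟩ := frame hQ hc (by simpa using hn)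
  have hr : ∀ i j, i ≠ j → (toO Q rfl).symm (refl Q (f i - f j)) ∈ reflectionSubgroup (⇑Q) c :=
    fun i j k => Subgroup.subset_closure ⟨_, norm_sub h1 h2 k,
      (coe_eq_reflectionMatrix_iff Q rfl).2 (MulEquiv.apply_symm_apply _ _)⟩
  have key : ∀ σ : Equiv.Perm (ZMod 23), ∃ g ∈ reflectionSubgroup (⇑Q) c,
      ∀ i, toO Q rfl g (f i) = f (σ i) := fun σ => by
    induction σ using Equiv.Perm.swap_induction_on with
    | one => exact ⟨1, one_mem _, fun i => by rw [map_one]; rfl⟩
    | swap_mul σ i j k ih =>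
      obtain ⟨g, hg, e⟩ := ih
      refine ⟨_, mul_mem (hr i j k) hg, fun l => ?_⟩
      rw [map_mul, MulEquiv.apply_symm_apply, O.mul_apply, e, refl_swap hc h1 h2 k]
      rfl
  obtain ⟨g, hg, e⟩ := key (Equiv.addRight 1)
  have ep : ∀ (m : ℕ) i, toO Q rfl (g ^ m) (f i) = f (i + m) := fun m => by
    induction m with
    | zero => intro i; rw [pow_zero, map_one, Nat.cast_zero, add_zero]; rfl
    | succ m ih =>
      intro i
      rw [pow_succ', map_mul, O.mul_apply, ih, e, Nat.cast_succ, ← add_assoc]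
      rfl
  set m := Nat.card (↥(reflectionSubgroup (⇑Q) c) ⧸ Subgroup.center ↥(reflectionSubgroup (⇑Q) c))
  have hm : (⟨g, hg⟩ : reflectionSubgroup (⇑Q) c) ^ m ∈ Subgroup.center _ := by
    rw [← QuotientGroup.eq_one_iff, QuotientGroup.mk_pow]
    exact pow_card_eq_one'
  have h01 : (0 : ZMod 23) ≠ 1 := by decide
  have hcm := congrArg (fun x : reflectionSubgroup (⇑Q) c => toO Q rfl x.1 (f 0))
    (Subgroup.mem_center_iff.1 hm ⟨_, hr 0 1 h01⟩)
  simp only [Subgroup.coe_mul, Subgroup.coe_pow, map_mul, MulEquiv.apply_symm_apply,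
    O.mul_apply] at hcm
  rw [ep, refl_swap hc h1 h2 h01, refl_swap hc h1 h2 h01, ep] at hcm
  exact (ZMod.natCast_eq_zero_iff m 23).1 ((by decide +kernel : ∀ a : ZMod 23,
    Equiv.swap 0 1 (0 + a) = Equiv.swap 0 1 0 + a → a = 0) _ (frame_inj hc h1 h2 hcm))

end H84.E7F3
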