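import Cfsg.Agent.H42.SimXBSpec

/-! Tower SIM (S3694), chapter XA part two, job `SF`: numerics. -/

set_option autoImplicit false

namespace H84.SimSF

theorem jobSF : H42.SX.JobSF := by
  intro u n q r f m hr hq hm h2 h4 h8 h3
  have q9 : q ≤ 9 := by cases u <;> simp at hm <;> omega
  have f3 : f ≤ 3 := by
    by_contra hf
    have h1 : 2 ^ 4 ≤ 2 ^ f := Nat.pow_le_pow_right two_pos (by omega)
    have h5 : 2 ^ f ≤ r ^ f := Nat.pow_le_pow_left hr.two_le f
    omega
  clear hm hq q9
  interval_cases n
  · interval_cases m <;> simp [Nat.factorial] <;> omega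
  · have := h3 le_rfl
    interval_cases m <;> simp [Nat.factorial] <;> omega
  · have := h3 (by omega)
    interval_cases m <;> simp [Nat.factorial] <;> omega

end H84.SimSF
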