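/- C3 tower (row S5227), jobs N3 and St (blueprints/C3.md, section A). -/
import Cfsg.Agent.H20.C3Kit

set_option autoImplicit false
set_option linter.unusedSimpArgs false
set_option linter.unnecessarySeqFocus false

open Subgroup H20.C3
open H90.RF (Au Pr Cg Lg cm)

namespace H84.C3N3

/-- `α` is inner on `X` -/
def Inn (X : Subgroup Co) (α : Co → Co) : Prop := ∃ s ∈ X, ∀ u ∈ X, α u = s * u * s⁻¹

section Gen
variable {X : Subgroup Co} {Y : Subgroup (Equiv.Perm Co)}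

theorem fix1 (l : Lg X Y) {T n : Equiv.Perm Co} (hT : T ∈ Y) (hn : n ∈ Y) (h2 : T * T = 1)
    (hi : Inn X ⇑(T * (n * T * n⁻¹))) :
    ∃ j ∈ Y, Inn X j ∧ Commute (j * n) T ∧ ∀ c, Commute c T → Commute c n → Commute c j := by
  obtain ⟨s, hs, e⟩ := hi
  have hx : T * (n * T * n⁻¹) ∈ Y := mul_mem hT (mul_mem (mul_mem hn hT) (inv_mem hn))
  have hp : ∀ k : ℕ, ∀ u ∈ X, ((T * (n * T * n⁻¹)) ^ k) u = s ^ k * u * (s ^ k)⁻¹ := fun k => by
    induction k with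
    | zero => simp
    | succ k ih =>
      intro u hu
      rw [pow_succ, Equiv.Perm.mul_apply, e u hu, ih _ (mul_mem (mul_mem hs hu) (inv_mem hs))]
      group
  obtain ⟨k, hk⟩ := inv_conj (t' := n * T * n⁻¹) h2 (by rw [conj_mul, h2]; simp) (n := 3 ^ 9)
    (by decide) (l.ext (pow_mem hx _) (one_mem _) fun u hu => by
      rw [hp _ u hu, ← card_Co, pow_card_eq_one']; simp)
  refine ⟨_, pow_mem hx k, ⟨s ^ k, pow_mem hs k, hp k⟩, ?_, fun c h1 h2 =>
    (h1.mul_right ((h2.mul_right h1).mul_right h2.inv_right)).pow_right k⟩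
  generalize (T * (n * T * n⁻¹)) ^ k = j at hk
  calc j * n * T = j * (n * T * n⁻¹) * j⁻¹ * (j * n) := by group
    _ = T * (j * n) := by rw [hk]

/-- A representative that commutes with two commuting involutions. -/
theorem fix2 (l : Lg X Y) {δ δ' : DD} (h1 : In X Y (sd δ)) (h2 : In X Y (sd δ'))
    (p : ∀ δ, Pr (sd δ) X) (P : Equiv.Perm Co → Prop)
    (hP : ∀ n ∈ Y, ∀ j ∈ Y, Inn X j → P n → P (j * n))
    (hI : ∀ n ∈ Y, P n → ∀ T ∈ Y, ((∀ u ∈ X, T u = sd δ u) ∨ ∀ u ∈ X, T u = sd δ' u) →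
      Inn X ⇑(T * (n * T * n⁻¹)))
    {n : Equiv.Perm Co} (hn : n ∈ Y) (pn : P n) :
    ∃ n ∈ Y, P n ∧ (∀ u ∈ X, n (sd δ u) = sd δ (n u)) ∧ ∀ u ∈ X, n (sd δ' u) = sd δ' (n u) := by
  obtain ⟨T, hT, e⟩ := h1
  obtain ⟨T', hT', e'⟩ := h2
  have sq : ∀ δ, ∀ T ∈ Y, (∀ u ∈ X, T u = sd δ u) → T * T = 1 := fun δ T hT e =>
    l.ext (mul_mem hT hT) (one_mem _) fun u hu => by
      rw [Equiv.Perm.mul_apply, e u hu, e _ (p δ u hu), sd_sd_self]; rfl
  have c : Commute T T' := l.ext (mul_mem hT hT') (mul_mem hT' hT) fun u hu => by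
    rw [Equiv.Perm.mul_apply, Equiv.Perm.mul_apply, e u hu, e' u hu, e _ (p _ u hu),
      e' _ (p _ u hu), sd_sd, sd_sd, mul_comm]
  obtain ⟨j, hj, ij, cj, -⟩ := fix1 l hT hn (sq δ T hT e) (hI n hn pn T hT (.inl e))
  have p1 := hP n hn j hj ij pn
  obtain ⟨j', hj', ij', cj', k⟩ := fix1 l hT' (mul_mem hj hn) (sq δ' T' hT' e')
    (hI _ (mul_mem hj hn) p1 T' hT' (.inr e'))
  have hm := mul_mem hj' (mul_mem hj hn)
  refine ⟨_, hm, hP _ (mul_mem hj hn) j' hj' ij' p1, fun u hu => ?_, fun u hu => ?_⟩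
  · rw [← e u hu, ← e _ ((l.au _ hm).mem u hu)]
    exact (DFunLike.congr_fun ((k T c cj.symm).mul_right cj.symm).eq u).symm
  · rw [← e' u hu, ← e' _ ((l.au _ hm).mem u hu)]
    exact DFunLike.congr_fun cj'.eq u

end Gen

theorem wa {p : Co} (h1 : p = sd t1 p) (h2 : p⁻¹ = sd t2 p) (ha : p.a = 1) :
    xg p.h * p * (xg p.h)⁻¹ = xa 1 := by
  obtain ⟨a, b, d, c, e, f, g, h, z⟩ := p
  simp only at ha
  subst ha
  simp [Co.ext_iff, sd, t1, t2, xg, xa] at h1 h2 ⊢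
  grind

theorem wb {p : Co} (h1 : p⁻¹ = sd t1 p) (h2 : p = sd t2 p) (hb : p.b = 1) :
    xc p.e * p * (xc p.e)⁻¹ = xb 1 := by
  obtain ⟨a, b, d, c, e, f, g, h, z⟩ := p
  simp only at hb
  subst hb
  simp [Co.ext_iff, sd, t1, t2, xc, xb] at h1 h2 ⊢
  grind

theorem we {p : Co} (h1 : p⁻¹ = sd t1 p) (h2 : p = sd t2 p) (hb : p.b = 0) : p = xe p.e := by
  obtain ⟨a, b, d, c, e, f, g, h, z⟩ := p
  simp only at hb
  subst hb
  simp [Co.ext_iff, sd, t1, t2, xe] at h1 h2 ⊢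
  grind

theorem wc {p q : Co} (h1 : p = sd t1 p) (h2 : p = sd t2 p) (hq : q.a = 1)
    (hq' : q = sd t1 q) (k : q * p = p * q) : p = xc p.c * xz p.z := by
  have h3 := congrArg Co.h k
  have h5 : q.b = 0 := by
    have := congrArg Co.b hq'
    simp [sd, t1] at this
    grind
  clear k
  obtain ⟨a, b, d, c, e, f, g, h, z⟩ := p
  simp [Co.ext_iff, sd, t1, t2, xc, xz, hq] at h1 h2 ⊢
  have h4 : a = 0 ∧ b = 0 ∧ d = 0 ∧ e = 0 ∧ f = 0 ∧ h = 0 := by grind
  obtain ⟨rfl, rfl, rfl, rfl, rfl, rfl⟩ := h4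
  simpa [hq, h5] using h3

theorem cjc {s t : Co} (hs : s ∈ sA) (ht : t ∈ sA) (u : Co) : cj s (cj t u) = cj t (cj s u) := by
  calc _ = s * t * u * (s * t)⁻¹ := by simp only [cj]; group
    _ = _ := by rw [comm_A hs ht]; simp only [cj]; group

theorem jobN3 : JobN3 := by
  rintro - Y0 Y1 Y2 Y3 YA T h1 h2 ⟨n, hn, g⟩
  have res : ∀ f, In ⊤ Y0 f → In sE3 Y3 f := fun f ⟨y, hy, e⟩ =>
    (T.res3 y hy).congr fun u _ => e u trivial
  have p : ∀ δ, Pr (sd δ) sE3 := fun δ => pr_sd δ _ (by simp)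
  obtain ⟨n, hn, ⟨gR, gE⟩, c1, c2⟩ := fix2 T.l3 (res _ h1) (res _ h2) p
    (fun n => (∀ u ∈ sR, (n u).b = u.e ∧ (n u).e = -u.b) ∧ ∀ u ∈ sE3, (n u).a = u.a)
    (fun n hn j hj ⟨s, hs, e⟩ ⟨gR, gE⟩ => by
      have m := (T.l3.au n hn).mem
      refine ⟨fun u hu => ?_, fun u hu => ?_⟩
      · have k := m u (R_le_E3 hu)
        rw [Equiv.Perm.mul_apply, e _ k, cj_b, cj_e, mem_sE3.1 k, mem_sE3.1 hs]
        simpa using gR u hu
      · rw [Equiv.Perm.mul_apply, e _ (m u hu), cj_a, gE u hu])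
    (fun n hn ⟨gR, gE⟩ t ht e => by
      obtain ⟨δ, h3, e⟩ : ∃ δ : DD, δ.2.2 = 1 ∧ ∀ u ∈ sE3, t u = sd δ u :=
        e.elim (fun e => ⟨_, rfl, e⟩) fun e => ⟨_, rfl, e⟩
      have a := T.l3.au n hn
      have key : ∀ v ∈ sE3, (t * (n * t * n⁻¹)) (n v) = sd δ (n (sd δ v)) := fun v hv => by
        rw [← Equiv.Perm.mul_apply, mul_assoc, inv_mul_cancel_right, Equiv.Perm.mul_apply,
          Equiv.Perm.mul_apply, e v hv, e _ (a.mem _ (p δ v hv))]
      refine T.rad3 _ (mul_mem ht (mul_mem (mul_mem hn ht) (inv_mem hn))) (fun u hu => ?_)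
        fun u hu => ?_
      · obtain ⟨v, hv, rfl⟩ := a.sur u hu
        rw [key v hv, gE v hv]
        simp only [sd]
        have := gE _ (p δ v hv)
        simp only [sd] at this
        rw [this, ← mul_assoc, usq, one_mul]
      · obtain ⟨v, hv, rfl⟩ := a.sur u (R_le_E3 hu)
        have hR : v ∈ sR := ⟨(gE v hv).symm.trans hu.1, hv⟩
        have k := gR _ (pr_sd δ sR (by simp) v hR)
        rw [key v hv, (gR v hR).1, (gR v hR).2]
        generalize n (sd δ v) = w at k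
        simp only [sd, h3, Units.val_one, mul_one] at k ⊢
        rw [k.1, k.2]
        exact ⟨by rw [← mul_assoc, usq, one_mul], by rw [mul_neg, ← mul_assoc, usq, one_mul]⟩)
    hn g
  have a := T.l3.au n hn
  have fx : ∀ δ, (∀ u ∈ sE3, n (sd δ u) = sd δ (n u)) → ∀ u ∈ sE3, sd δ u = u → n u = sd δ (n u) :=
    fun δ c u hu e => by rw [← c u hu, e]
  have iv : ∀ δ, (∀ u ∈ sE3, n (sd δ u) = sd δ (n u)) → ∀ u ∈ sE3, sd δ u = u⁻¹ →
      (n u)⁻¹ = sd δ (n u) := fun δ c u hu e => by rw [← c u hu, e, a.inv hu]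
  have ea := wa (fx _ c1 (xa 1) rfl (by decide)) (iv _ c2 (xa 1) rfl (by decide)) (gE _ rfl)
  have eb := we (iv _ c1 (xb 1) rfl (by decide)) (fx _ c2 (xb 1) rfl (by decide))
    (gR _ ⟨rfl, rfl⟩).1
  have ee := wb (iv _ c1 (xe 1) rfl (by decide)) (fx _ c2 (xe 1) rfl (by decide))
    (gR _ ⟨rfl, rfl⟩).1
  rw [(gR _ ⟨rfl, rfl⟩).2] at eb ee
  have hI := (res _ (T.inn (xg (n (xa 1)).h))).comp (In.of_mem hn) a.mem
  refine hI.congr (ext_E3 (hI.au T.l3) au_nu3 ea ?_ ?_)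
  · rw [eb]
    generalize (n (xa 1)).h = x
    revert x
    decide
  · have : n (xe 1) = xb 1 := by simpa [xe, xc_zero] using ee
    rw [this]
    generalize (n (xa 1)).h = x
    revert x
    decide

theorem jobSt : JobSt := by
  intro hA Y0 Y1 Y2 Y3 YA T h1 h2 y hy g
  have pz : ∀ n ∈ Y0, ∀ i, Pr n (z0 i) := fun n hn => (hA n (T.l0.au n hn)).1
  have tp : ∀ f : Co → Co, Pr f ⊤ := fun _ _ _ => trivial
  obtain ⟨n, hn, g, c1, c2⟩ := fix2 T.l0 h1 h2 (fun _ => tp _) (fun n => Cg z0 9 n (sd t3))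
    (fun n hn j hj ⟨s, hs, e⟩ g => by
      refine Cg.trans (fun i hi c hc => ?_) g
      rw [Equiv.Perm.mul_apply, e _ trivial]
      exact z0_cm i hi _ (pz n hn _ c hc) s)
    (fun n hn g t ht e => by
      obtain ⟨δ, e⟩ : ∃ δ : DD, ∀ u ∈ (⊤ : Subgroup Co), t u = sd δ u :=
        e.elim (fun e => ⟨_, e⟩) fun e => ⟨_, e⟩
      have k1 := (g.comp_right (pr_sd_z0 δ)).comp_left (au_sd δ) (pr_sd_z0 δ) (fun _ _ => le_top)
        (tp _) (tp _)
      have k2 : Cg z0 9 (fun c => sd δ (n (sd δ c))) (sd t3) := by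
        simpa only [sd_sd, mul_comm t3 δ, ← mul_assoc, DD_sq, one_mul] using k1
      have k3 := (k2.trans g.symm).comp_right (pz _ (inv_mem hn))
      obtain ⟨s, hs⟩ := T.rad0 _ (mul_mem ht (mul_mem (mul_mem hn ht) (inv_mem hn)))
        (k3.congr (X := ⊤) (fun _ _ => le_top) (fun c _ => by
          simp only [Equiv.Perm.mul_apply, e _ trivial]) fun c _ => by simp)
      exact ⟨s, trivial, fun u _ => hs u⟩)
    hy g
  have a := T.l0.au n hn
  obtain ⟨ga, gb, gc, -⟩ := Cg_sd g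
  have fx : ∀ δ, (∀ u ∈ (⊤ : Subgroup Co), n (sd δ u) = sd δ (n u)) → ∀ u, sd δ u = u →
      n u = sd δ (n u) := fun δ c u e => by rw [← c u trivial, e]
  have iv : ∀ δ, (∀ u ∈ (⊤ : Subgroup Co), n (sd δ u) = sd δ (n u)) → ∀ u, sd δ u = u⁻¹ →
      (n u)⁻¹ = sd δ (n u) := fun δ c u e => by rw [← c u trivial, e, a.inv trivial]
  have ha : (n (xa 1)).a = 1 := by rw [ga]; decide
  have ea := wa (fx _ c1 (xa 1) (by decide)) (iv _ c2 (xa 1) (by decide)) ha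
  have eb := wb (iv _ c1 (xb 1) (by decide)) (fx _ c2 (xb 1) (by decide))
    (by rw [gb _ rfl]; decide)
  have ec := wc (fx _ c1 (xc 1) (by decide)) (fx _ c2 (xc 1) (by decide)) ha
    (fx _ c1 (xa 1) (by decide)) (by
    rw [← a.mul _ trivial _ trivial, ← a.mul _ trivial _ trivial,
      show xa 1 * xc 1 = xc 1 * xa 1 by decide])
  rw [gc _ ⟨rfl, rfl⟩] at ec
  have hI := (T.inn (xc (n (xb 1)).e)).comp ((T.inn (xg (n (xa 1)).h)).comp (In.of_mem hn) (tp _))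
    (tp _)
  have au : Au ⊤ fun u => sd t3 (rho (-(n (xc 1)).z) u) := (au_sd t3).comp (au_rho _)
  have hJ := hI.congr fun u _ => ext_top (hI.au T.l0) au (by
      change cj _ (xg _ * _ * _) = _
      rw [ea]
      generalize (n (xb 1)).e = x
      generalize (n (xc 1)).z = w
      revert x w
      decide) (by
      rw [cjc ⟨rfl, rfl, rfl⟩ ⟨rfl, rfl, rfl⟩]
      change cj _ (xc _ * _ * _) = _
      rw [eb]
      generalize (n (xa 1)).h = x
      generalize (n (xc 1)).z = w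
      revert x w
      decide) (by
      generalize (n (xc 1)).z = w at ec
      rw [ec]
      generalize (n (xb 1)).e = x
      generalize (n (xa 1)).h = v
      clear ec
      revert x v w
      decide) u
  generalize -(n (xc 1)).z = k at hJ
  obtain ⟨m, hm, e⟩ := hJ.comp hJ (tp _)
  have e' : ∀ u, m u = rho (k + k) u := fun u => by
    rw [e u trivial]
    beta_reduce
    rw [rho_sd, sd_sd_self, rho_rho]
  obtain ⟨s, hs⟩ := T.rad0 m hm fun i hi c hc => by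
    have : (id c)⁻¹ * m c = xz ((k + k) * c.c) := by
      rw [e', inv_mul_eq_iff_eq_mul]
      ext <;> simp [rho, xz]
    rw [this]
    rcases i with _ | i
    · rw [hc.2.2.2.1, mul_zero]
      exact one_mem _
    · exact monotone_nat_of_le_succ z0_mono (Nat.le_add_left 1 i)
        (show xz _ ∈ sZ from ⟨rfl, rfl, rfl, rfl, rfl, rfl, rfl, rfl⟩)
  have k0 : k = 0 := by
    have h3 := hs (xc 1)
    rw [e', cj_A s ⟨rfl, rfl, rfl⟩] at h3
    have h4 := congrArg Co.f h3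
    have h5 := congrArg Co.z h3
    simp [rho, xc, vv] at h4 h5
    rw [← h4] at h5
    grind
  exact hJ.congr fun u _ => by rw [k0, rho_zero]

end H84.C3N3
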