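import Cfsg.Agent.H48.DP1Spec
import Cfsg.Agent.S2690

/-! # S3275, chapter (1): automorphisms of `L₃(3)` -/

set_option autoImplicit false

namespace H84.DpA33

open Cfsg Matrix

universe u

abbrev SS := Matrix.SpecialLinearGroup (Fin 3) (ZMod 3)
abbrev MM := Matrix (Fin 3) (Fin 3) (ZMod 3)

theorem cmul (a b : SS) : (a * b).1 = a.1 * b.1 := rfl
theorem cinv (a : SS) : (a⁻¹).1 = a.1.adjugate := rfl
theorem cpow (a : SS) (n : ℕ) : (a ^ n).1 = a.1 ^ n := rfl
theorem cinvmul (a : SS) : (a⁻¹).1 * a.1 = 1 := by rw [← cmul, inv_mul_cancel]; rfl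
abbrev PP := ProjectiveSpecialLinearGroup (Fin 3) (ZMod 3)

theorem aut3_of_equiv {L M : Type*} [Group L] [Group M] (e : L ≃* M) (h : H48.DP.Aut3 M) :
    H48.DP.Aut3 L := by
  intro β
  rcases h ((e.symm.trans β).trans e) with ⟨l, hl⟩ | ⟨x, l, h1, h2, h3⟩
  · refine Or.inl ⟨e.symm l, ?_⟩
    ext y
    have := congrArg (fun f : MulAut M => f (e y)) hl
    simp only [MulEquiv.trans_apply, MulEquiv.symm_apply_apply, MulAut.conj_apply] at this
    apply e.injective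
    simp [this]
  · refine Or.inr ⟨e.symm x, e.symm l, by simpa using h1, by simpa using h2, ?_⟩
    apply e.injective
    simpa using h3

theorem delta_inner (δ : MulAut PP) (h : IsInnerDiagonalAutPSL δ) :
    ∃ l : PP, δ = MulAut.conj l := by
  obtain ⟨g, hg⟩ := h
  set d : ZMod 3 := (g : Matrix (Fin 3) (Fin 3) (ZMod 3)).det with hd
  have hd0 : d ≠ 0 := g.det_ne_zero
  have hdd : d * d = 1 := by
    revert hd0
    generalize d = c
    revert c
    decide
  have h4 : d ^ 3 * d = 1 := by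
    calc d ^ 3 * d = (d * d) * (d * d) := by ring
      _ = 1 := by rw [hdd, one_mul]
  let l : SS := ⟨d • (g : Matrix (Fin 3) (Fin 3) (ZMod 3)), by
    rw [det_smul, Fintype.card_fin]; exact h4⟩
  have hl : (l : Matrix (Fin 3) (Fin 3) (ZMod 3)) = d • (g : Matrix (Fin 3) (Fin 3) (ZMod 3)) := rfl
  have hli : ((l⁻¹ : SS) : Matrix (Fin 3) (Fin 3) (ZMod 3)) =
      d • ((g⁻¹ : GL (Fin 3) (ZMod 3)) : Matrix (Fin 3) (Fin 3) (ZMod 3)) := by
    have h1 : (l : Matrix (Fin 3) (Fin 3) (ZMod 3)) *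
        (d • ((g⁻¹ : GL (Fin 3) (ZMod 3)) : Matrix (Fin 3) (Fin 3) (ZMod 3))) = 1 := by
      rw [hl, smul_mul_smul_comm, hdd, one_smul, ← Units.val_mul, mul_inv_cancel, Units.val_one]
    calc ((l⁻¹ : SS) : Matrix (Fin 3) (Fin 3) (ZMod 3))
        = ((l⁻¹ : SS) : Matrix (Fin 3) (Fin 3) (ZMod 3)) * ((l : Matrix (Fin 3) (Fin 3) (ZMod 3)) *
          (d • ((g⁻¹ : GL (Fin 3) (ZMod 3)) : Matrix (Fin 3) (Fin 3) (ZMod 3)))) := by
            rw [h1, mul_one]
      _ = _ := by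
            rw [← mul_assoc, cinvmul, one_mul]
  refine ⟨QuotientGroup.mk l, ?_⟩
  ext y
  obtain ⟨s, rfl⟩ := QuotientGroup.mk_surjective y
  rw [hg s (l * s * l⁻¹)]
  · simp
  · rw [cmul, cmul, hli, hl, smul_mul_assoc,
      smul_mul_smul_comm, hdd, one_smul]

theorem phi_one (σ : ZMod 3 ≃+* ZMod 3) (φ : MulAut PP) (h : IsStdFieldAutPSL σ φ) : φ = 1 := by
  ext y
  obtain ⟨s, rfl⟩ := QuotientGroup.mk_surjective y
  rw [h s s]
  · rfl
  · ext i j
    have : σ.toRingHom = RingHom.id _ := Subsingleton.elim _ _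
    have h2 := congrArg (fun f : ZMod 3 →+* ZMod 3 => f (s.1 i j)) this
    simpa using h2.symm

def X0 : SS := ⟨!![0, 0, 1; 0, 2, 1; 1, 1, 0], by decide⟩
def Y0 : SS := ⟨!![1, 1, 0; 0, 1, 0; 0, 0, 1], by decide⟩

theorem X0_pow : X0 ^ 13 = 1 := by
  apply Subtype.ext
  rw [cpow]
  decide +kernel

theorem X0_nc : X0 * Y0 ≠ Y0 * X0 := by
  intro h
  have := congrArg (fun s : SS => s.1) h
  rw [cmul, cmul] at this
  revert this
  decide +kernel

theorem X0_symm : X0.1.transpose = X0.1 := by decide +kernel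

theorem order_X0 : orderOf (QuotientGroup.mk X0 : PP) = 13 := by
  have : Fact (Nat.Prime 13) := ⟨by norm_num⟩
  apply orderOf_eq_prime
  · rw [← QuotientGroup.mk_pow, X0_pow]; rfl
  · intro h
    rw [QuotientGroup.eq_one_iff] at h
    exact X0_nc ((Subgroup.mem_center_iff.1 h Y0).symm)

theorem aut3 : H48.DP.Aut3 PP := by
  intro β
  have : Fact (Nat.Prime 3) := ⟨by norm_num⟩
  obtain ⟨δ, φ, γ, σ, hδ, hφ, hγ, rfl⟩ := Cfsg.Agent.S2690.result (F := ZMod 3) (p := 3) (f := 1)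
    (by simp) le_rfl (n := 3) (by norm_num) (by norm_num) β
  obtain ⟨l, rfl⟩ := delta_inner δ hδ
  obtain rfl := phi_one σ φ hφ
  rcases hγ with rfl | hγ
  · exact Or.inl ⟨l, by simp⟩
  · refine Or.inr ⟨QuotientGroup.mk X0, l, by rw [order_X0]; norm_num, by rw [order_X0]; norm_num, ?_⟩
    have : γ (QuotientGroup.mk X0) = QuotientGroup.mk X0⁻¹ := by
      apply hγ
      rw [cinv, adjugate_transpose, X0_symm]
    rw [mul_one, MulAut.mul_apply, this]
    simp

theorem jobA33 : H48.DP.JobA33.{u} := fun _ _ _ ⟨e⟩ => aut3_of_equiv e aut3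

end H84.DpA33
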