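import Cfsg.Agent.H40.E82Spec

/-! Tower E82, job Z: a large subalgebra of a centraliser of type `A₁ A₁ T₆` meets its centre. -/

set_option autoImplicit false
set_option linter.unusedSectionVars false

namespace H84.E82Z

open Cfsg.Lie H63 H64 H65 H46 H14.E8 Matrix Module H40.E8F H56.SL2M H40.E82
open scoped Classical

section lin
variable {ι k : Type} [Field k]

/-- vectors supported on `p` -/
def Sup (k : Type) [Field k] (p : ι → Prop) : Submodule k (ι → k) where
  carrier := {v | ∀ j, ¬ p j → v j = 0}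
  add_mem' ha hb j hj := by rw [Pi.add_apply, ha j hj, hb j hj, add_zero]
  zero_mem' _ _ := rfl
  smul_mem' a v hv j hj := by rw [Pi.smul_apply, hv j hj, smul_zero]

theorem finrank_sup [Fintype ι] (p : ι → Prop) :
    finrank k (Sup k p) = (Finset.univ.filter p).card := by
  let e : Sup k p ≃ₗ[k] ({j // p j} → k) :=
    { toFun v j := v.1 j.1
      map_add' _ _ := rfl
      map_smul' _ _ := rfl
      invFun w := ⟨fun j => if h : p j then w ⟨j, h⟩ else 0, fun j hj => dif_neg hj⟩
      left_inv v := Subtype.ext (funext fun j => by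
        by_cases h : p j
        · exact dif_pos h
        · exact (dif_neg h).trans (v.2 j h).symm)
      right_inv w := funext fun j => dif_pos j.2 }
  rw [e.finrank_eq, finrank_fintype_fun_eq_card, Fintype.card_subtype]

end lin

variable {D : ChevalleyDatum} [RS D] [Tab D] [Comm D] {k : Type} [Field k]

/-- the indices fixed by `c` -/
def pc (c : Fin D.rank → kˣ) : D.Idx → Prop := Sum.elim (fun _ => True) fun r => chi D c r = 1

theorem tor_fix {c : Fin D.rank → kˣ} {v : D.Idx → k} :
    act (tor D k c) v = v ↔ v ∈ Sup k (pc c) := by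
  constructor
  · rintro h (i | r) hr
    · exact absurd trivial hr
    · have := congrFun h (Sum.inr r)
      rw [tor_inr] at this
      by_contra h0
      exact hr (Units.ext (mul_right_cancel₀ h0 (this.trans (one_mul _).symm)))
  · intro h
    funext j
    rcases j with i | r
    · exact tor_inl c v i
    · rw [tor_inr]
      by_cases h1 : chi D c r = 1
      · rw [h1, Units.val_one, one_mul]
      · rw [h (Sum.inr r) h1, mul_zero]

theorem card_pc (c : Fin D.rank → kˣ) : (Finset.univ.filter (pc c)).card =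
    D.rank + (Finset.univ.filter fun r : Rt D => chi D c r = 1).card := by
  rw [Finset.card_filter, Finset.card_filter, Fintype.sum_sum_type]
  congr 1
  · simp [pc]
  · exact Finset.sum_congr rfl fun r _ => if_congr Iff.rfl rfl rfl

theorem B_hh {h h' : D.Idx → k} (hh : InH h) (hh' : InH h') : B D k h h' = 0 := by
  rw [inH_iff_sum hh, inH_iff_sum hh', map_sum]
  refine Finset.sum_eq_zero fun j _ => ?_
  rw [map_smul, map_sum, LinearMap.sum_apply, Finset.sum_eq_zero, smul_zero]
  intro i _
  rw [map_smul, LinearMap.smul_apply, B_h_bv i.2 (by have := j.2; omega), wtv,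
    if_neg (by omega)]
  simp

/-- central elements of the centraliser -/
theorem B_cen {c : Fin D.rank → kˣ} {h a : D.Idx → k} (hh : InH h)
    (h0 : ∀ r : Rt D, chi D c r = 1 → rv h r = 0) (ha : a ∈ Sup k (pc c)) : B D k h a = 0 := by
  rw [eq_hp_add a, map_add, B_hh hh (inH_hp a), zero_add, map_sum]
  refine Finset.sum_eq_zero fun r _ => ?_
  rw [map_smul, B_inH hh]
  by_cases h1 : chi D c r = 1
  · rw [h0 r h1, zero_smul, smul_zero]
  · rw [ha (Sum.inr r) h1, zero_smul]

theorem rv_neg (v : D.Idx → k) (r : Rt D) : rv v (negR r) = - rv v r := by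
  rw [rv, rv, ← Finset.sum_neg_distrib]
  exact Finset.sum_congr rfl fun i _ => by rw [negR_val, cartan_neg]; simp

theorem rv_co (a r : Rt D) : rv (H65.vec D k (coL D a)) r = (D.pairing a r : k) := by
  rw [rv, pairing_eq, Int.cast_sum]
  exact Finset.sum_congr rfl fun i _ => by
    rw [vec_coL_inl, Int.cast_mul, mul_comm]; rfl

theorem chi_refl' {c : Fin D.rank → kˣ} {a r : Rt D} (ha : chi D c a = 1) (hr : chi D c r = 1) :
    chi D c (refl a r) = 1 := by
  rw [chi_eq_prod] at ha hr ⊢
  have : ∀ j : Fin D.rank, chi D c (D.simple j) ^ rt (refl a r) j =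
      chi D c (D.simple j) ^ rt r j * (chi D c (D.simple j) ^ rt a j) ^ (- D.pairing a r) := fun j => by
    rw [rt_refl, ← _root_.zpow_mul, ← _root_.zpow_add]
    congr 1
    simp only [Pi.sub_apply, Pi.smul_apply, smul_eq_mul]
    ring
  simp only [this]
  rw [Finset.prod_mul_distrib, Finset.prod_zpow, ha, hr, _root_.one_zpow, mul_one]

/-- four roots: the pairings are even -/
theorem even_pairing {c : Fin D.rank → kˣ} {a b : Rt D} (ha : chi D c a = 1)
    (hs : ∀ r : Rt D, chi D c r = 1 → r = a ∨ r = negR a ∨ r = b ∨ r = negR b) {r : Rt D}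
    (hr : chi D c r = 1) : Even (D.pairing a r) := by
  by_contra ho
  have h1 : ∀ s : Rt D, ¬ Even (D.pairing a s) → s ≠ a ∧ s ≠ negR a := fun s h =>
    ⟨by rintro rfl; exact h (by simp), by rintro rfl; exact h (by simp)⟩
  have h2 : ¬ Even (D.pairing a (refl a r)) := by rwa [pairing_self_refl, even_neg]
  have h3 : refl a r ≠ r := fun e => ho (by rw [refl_eq_self_iff.1 e]; simp)
  have h4 : refl a r ≠ negR r := fun e => by
    have e1 := congrArg (cop r) (rt_refl a r)
    rw [e, rt_negR, cop_neg, cop_sub, cop_smul, cop_rt, cop_rt, pairing_self] at e1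
    have := pairing_mul_pairing_le (h1 r ho).1 (h1 r ho).2
    linarith
  have h5 := (hs r hr).resolve_left (h1 r ho).1 |>.resolve_left (h1 r ho).2
  have h6 := (hs _ (chi_refl' ha hr)).resolve_left (h1 _ h2).1 |>.resolve_left (h1 _ h2).2
  rcases h5 with h5 | h5 <;> rcases h6 with h6 | h6
  · exact h3 (h6.trans h5.symm)
  · exact h4 (by rw [h6, h5])
  · exact h4 (by rw [h6, h5, negR_negR])
  · exact h3 (h6.trans h5.symm)

theorem four {c : Fin D.rank → kˣ}
    (h4 : (Finset.univ.filter fun r : Rt D => chi D c r = 1).card = 4) :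
    ∃ a b : Rt D, chi D c a = 1 ∧ b ≠ a ∧ b ≠ negR a ∧
      ∀ r : Rt D, chi D c r = 1 → r = a ∨ r = negR a ∨ r = b ∨ r = negR b := by
  set P := Finset.univ.filter fun r : Rt D => chi D c r = 1 with hP
  have hm : ∀ r, r ∈ P ↔ chi D c r = 1 := fun r => by simp [hP]
  have hn : ∀ r, r ∈ P → negR r ∈ P := fun r hr => by
    rw [hm] at hr ⊢
    rw [chi_negR, hr, inv_one]
  obtain ⟨a, ha⟩ : P.Nonempty := Finset.card_pos.1 (by omega)
  obtain ⟨b, hb, hb'⟩ := Finset.exists_mem_notMem_of_card_lt_card (s := {a, negR a}) (t := P)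
    (lt_of_le_of_lt Finset.card_le_two (by omega))
  simp only [Finset.mem_insert, Finset.mem_singleton, not_or] at hb'
  refine ⟨a, b, (hm a).1 ha, hb'.1, hb'.2, fun r hr => ?_⟩
  have h1 : negR b ≠ a := fun e => hb'.2 (by rw [← e, negR_negR])
  have h2 : negR b ≠ negR a := fun e => hb'.1 (by rw [← negR_negR b, e, negR_negR])
  have hc : ({a, negR a, b, negR b} : Finset (Rt D)).card = 4 := by
    rw [Finset.card_insert_of_notMem, Finset.card_insert_of_notMem, Finset.card_pair (negR_ne b).symm]
    · simp only [Finset.mem_insert, Finset.mem_singleton, not_or]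
      exact ⟨Ne.symm hb'.2, h2.symm⟩
    · simp only [Finset.mem_insert, Finset.mem_singleton, not_or]
      exact ⟨(negR_ne a).symm, Ne.symm hb'.1, h1.symm⟩
  have he : ({a, negR a, b, negR b} : Finset (Rt D)) = P := Finset.eq_of_subset_of_card_le (by
    intro s hs
    simp only [Finset.mem_insert, Finset.mem_singleton] at hs
    rcases hs with rfl | rfl | rfl | rfl
    exacts [ha, hn _ ha, hb, hn _ hb]) (by omega)
  have := (hm r).2 hr
  rw [← he] at this
  simpa using this

/-- the diagonal case -/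
theorem diag (h2 : (2 : k) = 0) (hodd : ∀ r : Rt D, ∃ i : Fin D.rank, Odd (co D r i))
    {c : Fin D.rank → kˣ} (h4 : (Finset.univ.filter fun r : Rt D => chi D c r = 1).card = 4)
    (Y : Submodule k (D.Idx → k)) (hY : Y ≤ Sup k (pc c))
    (hB : ∀ a ∈ Y, ∀ b ∈ Y, B D k a b ∈ Y) (h6 : 6 ≤ finrank k Y) :
    ∃ v ∈ Y, v ≠ 0 ∧ ∀ a ∈ Sup k (pc c), B D k a v = 0 := by
  obtain ⟨a, b, ha, hb1, hb2, hs⟩ := four h4
  by_contra hne
  push Not at hne
  have hz : ∀ v ∈ Y, InH v → (∀ r : Rt D, chi D c r = 1 → rv v r = 0) → v = 0 := fun v hv h1 h0 => by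
    by_contra h
    obtain ⟨x, hx, hx'⟩ := hne v hv h
    exact hx' (by rw [B_antisymm, B_cen h1 h0 hx, neg_zero])
  have hrv : ∀ v : D.Idx → k, rv v a = 0 → rv v b = 0 → ∀ r : Rt D, chi D c r = 1 → rv v r = 0 :=
    fun v h1 h3 r hr => by
      rcases hs r hr with rfl | rfl | rfl | rfl
      exacts [h1, by rw [rv_neg, h1, neg_zero], h3, by rw [rv_neg, h3, neg_zero]]
  let φ : Y →ₗ[k] (Fin 6 → k) :=
    { toFun v := ![v.1 (Sum.inr a), v.1 (Sum.inr (negR a)), v.1 (Sum.inr b), v.1 (Sum.inr (negR b)),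
        rv v.1 a, rv v.1 b]
      map_add' v w := by
        funext i
        fin_cases i <;> simp [rv, mul_add, Finset.sum_add_distrib]
      map_smul' t v := by
        funext i
        fin_cases i <;> simp [rv, Finset.mul_sum, mul_left_comm] }
  have hi : Function.Injective φ := by
    rw [injective_iff_map_eq_zero]
    intro v hv
    refine Subtype.ext (hz v.1 v.2 (fun r => ?_) (hrv _ (congrFun hv 4) (congrFun hv 5)))
    by_cases h1 : chi D c r = 1
    · rcases hs r h1 with rfl | rfl | rfl | rfl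
      exacts [congrFun hv 0, congrFun hv 1, congrFun hv 2, congrFun hv 3]
    · exact hY v.2 (Sum.inr r) h1
  have hsu : Function.Surjective φ := by
    have h1 := LinearMap.finrank_le_finrank_of_injective hi
    exact (LinearMap.injective_iff_surjective_of_finrank_eq_finrank
      (le_antisymm h1 (by simpa using h6))).1 hi
  have hsp : ∀ (v : Y) (s : Rt D), (∀ r : Rt D, chi D c r = 1 → v.1 (Sum.inr r) = if r = s then 1 else 0) →
      chi D c s = 1 → v.1 = hp v.1 + bv D k s := fun v s h hs1 => by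
    funext j
    rcases j with i | r
    · have : ¬ D.nroots + i = s := by have := s.2; omega
      simp [hp_inl, bv_inl, this]
    · rw [Pi.add_apply, hp_inr, zero_add, bv_inr]
      by_cases h1 : chi D c r = 1
      · rw [h r h1]; exact if_congr Fin.val_inj.symm rfl rfl
      · rw [hY v.2 (Sum.inr r) h1, if_neg fun e => h1 (by rw [e]; exact hs1)]
  have hna : chi D c (negR a) = 1 := by rw [chi_negR, ha, inv_one]
  have n1 : negR b ≠ a := fun e => hb2 (by rw [← e, negR_negR])
  have n2 : negR b ≠ negR a := fun e => hb1 (by rw [← negR_negR b, e, negR_negR])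
  obtain ⟨v, hv⟩ := hsu ![1, 0, 0, 0, 0, 0]
  obtain ⟨w, hw⟩ := hsu ![0, 1, 0, 0, 0, 0]
  have ev := hsp v a (fun r hr => by
    rcases hs r hr with rfl | rfl | rfl | rfl
    exacts [(congrFun hv 0).trans (if_pos rfl).symm, (congrFun hv 1).trans (if_neg (negR_ne _)).symm,
      (congrFun hv 2).trans (if_neg hb1).symm, (congrFun hv 3).trans (if_neg n1).symm]) ha
  have ew := hsp w (negR a) (fun r hr => by
    rcases hs r hr with rfl | rfl | rfl | rfl
    exacts [(congrFun hw 0).trans (if_neg (negR_ne _).symm).symm, (congrFun hw 1).trans (if_pos rfl).symm,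
      (congrFun hw 2).trans (if_neg hb2).symm, (congrFun hw 3).trans (if_neg n2).symm]) hna
  have cv : ∀ r : Rt D, chi D c r = 1 → rv (hp v.1) r = 0 := hrv v.1 (congrFun hv 4) (congrFun hv 5)
  have cw : ∀ r : Rt D, chi D c r = 1 → rv (hp w.1) r = 0 := hrv w.1 (congrFun hw 4) (congrFun hw 5)
  have hbr : B D k v.1 w.1 = H65.vec D k (coL D a) := by
    conv_lhs => rw [ev, map_add, LinearMap.add_apply, B_cen (inH_hp _) cv (hY w.2), zero_add, ew,
      map_add, B_antisymm, B_inH (inH_hp _), cw a ha, zero_smul, neg_zero, zero_add]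
    rw [B_bv D (by have := a.2; omega) (by have := (negR a).2; omega), negR_val, br_root_neg a.2]
  have h0 := hz _ (hbr ▸ hB _ v.2 _ w.2) (fun r => vec_coL_inr D _ r) (fun r hr => by
    obtain ⟨m, hm⟩ := even_pairing ha hs hr
    rw [rv_co, hm]
    push_cast
    rw [← two_mul, h2, zero_mul])
  obtain ⟨i, m, hm⟩ := hodd a
  have := congrFun h0 (Sum.inl i)
  rw [vec_coL_inl] at this
  change ((co D a i : ℤ) : k) = 0 at this
  rw [hm] at this
  push_cast at this
  rw [h2, zero_mul, zero_add] at this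
  exact one_ne_zero this

/-- the general case -/
theorem main (h2 : (2 : k) = 0) (hodd : ∀ r : Rt D, ∃ i : Fin D.rank, Odd (co D r i))
    {z : GL D.Idx k} (hz : z ∈ D.group k) {c : Fin D.rank → kˣ} {f : End k (D.Idx → k)}
    (hf : ∀ v, f v = act (z * tor D k c * z⁻¹) v) (h12 : finrank k (fx f) = D.rank + 4)
    (Y : Submodule k (D.Idx → k)) (hY : Y ≤ fx f)
    (hB : ∀ a ∈ Y, ∀ b ∈ Y, B D k a b ∈ Y) (h6 : 6 ≤ finrank k Y) :
    ∃ v ∈ Y, v ≠ 0 ∧ ∀ a ∈ fx f, B D k a v = 0 := by
  let e : (D.Idx → k) ≃ₗ[k] (D.Idx → k) :=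
    { toFun := act z⁻¹
      map_add' := act_add _
      map_smul' := act_smul _
      invFun := act z
      left_inv := act_act_inv z
      right_inv := act_inv_act z }
  have he : ∀ v, e v = act z⁻¹ v := fun _ => rfl
  have hA : ∀ a b, e (B D k a b) = B D k (e a) (e b) := isAut_of_mem (inv_mem hz)
  have hm : ∀ v, v ∈ fx f ↔ e v ∈ Sup k (pc c) := fun v => by
    rw [← tor_fix, End.mem_eigenspace_iff, one_smul, hf, act_mul, act_mul, he]
    exact ⟨fun h => by rw [← act_inv_act z (act (tor D k c) _), h],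
      fun h => by rw [h, act_act_inv]⟩
  have hmap : (fx f).map e.toLinearMap = Sup k (pc c) := by
    ext v
    constructor
    · rintro ⟨u, hu, rfl⟩
      exact (hm u).1 hu
    · intro hv
      exact ⟨e.symm v, (hm _).2 (by rwa [e.apply_symm_apply]), e.apply_symm_apply v⟩
  have h4 : (Finset.univ.filter fun r : Rt D => chi D c r = 1).card = 4 := by
    have := finrank_sup (k := k) (pc (D := D) c)
    rw [card_pc, ← hmap, LinearEquiv.finrank_map_eq, h12] at this
    omega
  obtain ⟨_, ⟨v, hv, rfl⟩, h0, h1⟩ := diag h2 hodd h4 (Y.map e.toLinearMap)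
    (hmap ▸ Submodule.map_mono hY) (by
      rintro _ ⟨a, ha, rfl⟩ _ ⟨b, hb, rfl⟩
      exact ⟨_, hB a ha b hb, hA a b⟩) (by rwa [LinearEquiv.finrank_map_eq])
  refine ⟨v, hv, fun h => h0 (by rw [h, map_zero]), fun a ha => e.injective ?_⟩
  rw [hA, map_zero]
  exact h1 _ ((hm a).1 ha)

theorem adj_eq {E : Type} [Field E] (g : D.group E) (v : D.Idx → AlgebraicClosure E) :
    adj D E g v = act (H67.toAlg D E g).1 v := rfl

attribute [local instance] H65.tabE8 H65.commE8

theorem odd8 : ∀ r : Rt chevE8, ∃ i : Fin chevE8.rank, co chevE8 r i % 2 = 1 := by decide +kernel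

theorem jobZ : JobZ := fun g _ hz _ hg h12 Y hY hB h6 =>
  main (CharP.cast_eq_zero K2 2) (fun r => (odd8 r).imp fun _ h => Int.odd_iff.2 h) hz
    (fun v => (adj_eq g v).trans (congrArg (act · v) hg)) h12 Y hY hB h6

end H84.E82Z
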