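import Cfsg.Agent.H11.MaxCl2
import Cfsg.Agent.H98.Sylow
import Cfsg.Agent.H3.FrattiniP

/-! Sylow subgroups of maximal class: centralizers of uniform elements outside a normal subgroup. -/

set_option autoImplicit false
set_option linter.unusedSectionVars false

namespace H84.MCS

open Subgroup H11 H11.MaxCl H98
open scoped commutatorElement

variable {S G : Type*} [Group S] [Finite S] [Group G] [Finite G] {p n : ℕ} [hp : Fact p.Prime]

/-- the chain through a maximal subgroup of a group of order `p ^ 3` -/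
def ch3 (M : Subgroup S) : ℕ → Subgroup S
  | 0 => ⊤
  | 1 => M
  | 2 => center S
  | _ + 3 => ⊥

theorem maxCl_three (hS : Nat.card S = p ^ 3) (hna : ¬ IsMulCommutative S) {M : Subgroup S}
    (hM : Nat.card M = p ^ 2) : ∃ _ : ∀ j, (ch3 M j).Normal, MaxCl p 3 (ch3 M) := by
  have hP : IsPGroup p S := .of_card hS
  have hp1 := hp.out.one_lt
  have : Nontrivial S := Finite.one_lt_card_iff_nontrivial.1 (hS ▸ Nat.one_lt_pow (by omega) hp1)
  have h1 := H9.sq_le_index_center hP hna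
  have h2 := H9.mul_card_le_of_lt hP hP.bot_lt_center
  have h3 := (center S).card_mul_index
  rw [Subgroup.card_bot, mul_one] at h2
  rw [hS, pow_succ'] at h3
  have hZ : Nat.card (center S) = p := le_antisymm
    (Nat.le_of_mul_le_mul_right ((Nat.mul_le_mul_left _ h1).trans h3.le) (by positivity)) h2
  have h4 : commutator S ≤ center S := H9.commutator_le_of_index_le_sq hP
    (Nat.eq_of_mul_eq_mul_left hp.out.pos (hZ ▸ h3)).le
  have h5 : ¬ M ≤ center S := fun e => by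
    have := card_le_of_le e
    rw [hM, hZ] at this
    nlinarith
  have h6 : center S ≤ M := by
    by_contra e
    have h7 := H9.mul_card_le_of_lt hP (left_lt_sup.2 e)
    rw [hM, ← pow_succ', ← hS] at h7
    have := IsPGroup.isMulCommutative_of_card_eq_prime_sq hM
    have h8 : ⊤ ≤ centralizer (M : Set S) :=
      (eq_top_of_le_card _ h7).ge.trans (sup_le M.le_centralizer (center_le_centralizer _))
    exact h5 fun x hx => mem_center_iff.2 fun g => (h8 (mem_top g) x hx).symm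
  refine ⟨fun j => match j with
    | 0 => normal_top
    | 1 => .of_commutator_le _ (h4.trans h6)
    | 2 => inferInstanceAs (center S).Normal
    | _ + 3 => normal_bot, fun i => ?_, rfl, antitone_nat_of_succ_le fun i => ?_, fun i hi => ?_, ?_⟩
  · match i with
    | 0 => exact Subgroup.card_top.trans hS
    | 1 => exact hM
    | 2 => exact hZ.trans (pow_one p).symm
    | i + 3 => exact Subgroup.card_bot.trans (by simp)
  · match i with
    | 0 => exact le_top
    | 1 => exact h6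
    | i + 2 => exact bot_le
  · match i with
    | 1 =>
      refine eq_of_le_of_card_ge ((commutator_mono le_top le_rfl).trans h4) ?_
      have := H9.mul_card_le_of_lt hP (bot_lt_iff_ne_bot.2 fun e : ⁅M, ⊤⁆ = ⊥ => h5 fun x hx =>
        mem_center_iff.2 fun g => commutator_eq_bot_iff_le_centralizer.1 e hx g trivial)
      rwa [Subgroup.card_bot, mul_one, ← hZ] at this
    | 2 => exact commutator_eq_bot_iff_le_centralizer.2 (center_le_centralizer _)
    | i + 3 => exact commutator_bot_left _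
  · exact (commutator_eq_bot_iff_le_centralizer.2 (center_le_centralizer _)).le

theorem exists_notMem_three (hS : IsPGroup p S) (h2 : p ≠ 2) {A B C : Subgroup S} (hA : A ≠ ⊤)
    (hB : B ≠ ⊤) (hC : C ≠ ⊤) : ∃ s, s ∉ A ∧ s ∉ B ∧ s ∉ C := by
  by_contra! hc
  obtain ⟨s, s1, s2⟩ := exists_notMem_two hA hB
  obtain ⟨t, t1, t2⟩ := exists_notMem_two hC hA
  have s3 := hc s s1 s2
  have t3 : t ∈ B := by_contra fun e => t1 (hc t t2 e)
  have key : ∀ u ∈ B, u ∉ C → s * u ∈ A := fun u h1 h3 => by_contra fun e =>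
    h3 ((Subgroup.mul_mem_cancel_left _ s3).1 (hc _ e fun e => s2 ((mul_mem_cancel_right h1).1 e)))
  obtain ⟨k, hk⟩ := IsPGroup.iff_orderOf.1 hS t
  refine t2 ((Subgroup.mul_mem_cancel_left _ (key t t3 t1)).1 ?_)
  rw [mul_assoc, ← pow_two]
  exact key _ (pow_mem t3 2) fun e => t1 (zpowers_le.2 e (mem_zpowers_pow_iff.2 (by
    rw [hk]; exact ((Nat.coprime_primes Nat.prime_two hp.out).2 h2.symm).pow_right k)))

section chain

variable {Γ : ℕ → Subgroup S} (h : MaxCl p n Γ) [∀ j, (Γ j).Normal] {x : S} {i : ℕ}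
include h

theorem split (hn : 3 ≤ n) {Q : Subgroup S} [Q.Normal] (h1 : Q ≠ ⊤) (h2 : Q ≤ Γ 1 ∨ 4 ≤ n) :
    Q ≤ Γ (n - 1) ∨ Γ (n - 2) ≤ Q ∧ ∃ x, x ∉ Γ 1 ∧ Unif Γ (n - 2) x ∧ x ∉ Q := by
  by_cases h3 : Q ≤ Γ 1
  · refine or_iff_not_imp_left.2 fun h4 => ?_
    obtain ⟨i, h5, h6⟩ := h.exists_level (H := Q) (fun e => h4 (e ▸ bot_le))
    obtain ⟨x, x1, x2⟩ := h.exists_unif_top hn
    refine ⟨(h.anti (not_lt.1 fun e => h4 (h5.trans (h.anti (by omega))))).trans (h.eq_of_normal hn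
      (Nat.pos_of_ne_zero fun e : i = 0 => h6 (by rwa [e])) h5 h6).ge, x, x1, x2, fun e => x1 (h3 e)⟩
  have h4 := h2.resolve_left h3
  obtain ⟨s, hs, hs'⟩ := SetLike.not_le_iff_exists.1 h3
  obtain ⟨w, hw, hw'⟩ := h.exists_gen (i := 1) (by omega)
  have h5 : Γ 1 ≠ ⊤ := fun e => hs' (e ▸ mem_top s)
  refine .inr ⟨(h.anti (by omega)).trans ((h.eq_of_normal hn (N := Q ⊓ Γ 2) (i := 2) one_le_two
    inf_le_right fun e => h.comm_notMem hw hw' (by rwa [h.K_one hn]) (e ⟨commutator_le_right ⊤ Q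
      (commutator_mem_commutator trivial hs), h.comm_mem hw s⟩)).ge.trans inf_le_left), ?_⟩
  by_cases h6 : p = 2
  · obtain ⟨x, x1, x2⟩ := exists_notMem_two h5 h1
    exact ⟨x, x1, h.unif_of_notMem (h.ne_all (.inl (by omega))) x1, x2⟩
  obtain ⟨x, x1, x2, x3⟩ := exists_notMem_three h.isPGroup h6 h5
    (h.K_ne_top (j := n - 2) (by omega) (by omega)) h1
  refine ⟨x, x1, fun j j1 j2 => ?_, x3⟩
  rcases j2.eq_or_lt with rfl | j2
  · exact x2
  · rwa [NE.K_eq h h.ne_sub j1 j2 (by omega)]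

variable (hx : Unif Γ (n - 2) x) (hx1 : x ∉ Γ 1)
include hx

theorem le_comm (hi : 1 ≤ i) {U : Subgroup S} (hU : x ∈ U) : Γ (i + 1) ≤ ⁅Γ i, U⁆ := by
  by_cases h1 : n ≤ i + 1
  · rw [h.eq_bot h1]; exact bot_le
  obtain ⟨w, hw, hw'⟩ := h.exists_gen (i := i) (by omega)
  refine hx.le_of_itc h (by omega) (h.comm_mem hw x) (h.comm_notMem hw hw' (hx i hi (by omega)))
    fun k => ?_
  rcases k with _ | k
  · exact commutator_mem_commutator hw hU
  · exact commutator_mem_commutator (h.anti (by omega) (itc_mem (B := fun j => Γ (i + 1 + j))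
      (fun j => h.comm_top_le _) (h.comm_mem hw x) x k)) hU

omit hx in
theorem comm_U (i : ℕ) : ⁅Γ i ⊔ zpowers x, Γ i ⊔ zpowers x⁆ ≤ Γ (i + 1) :=
  comm_self_le_of_sup ((commutator_comm _ _).le.trans
    ((commutator_mono le_rfl le_top).trans (h.comm_top_le i)))

theorem zpow_mem_of (hi : i ≤ n - 2 + 1) {k : ℤ} (hk : (p : ℤ) ∣ k) : x ^ k ∈ Γ i := by
  obtain ⟨k, rfl⟩ := hk
  rw [zpow_mul, zpow_natCast]
  exact zpow_mem (h.anti hi (hx.pow_mem h)) k

theorem mem_of_U (hi : i ≤ n - 2 + 1) {y : S} (hy : y ∈ Γ i ⊔ zpowers x) (hy' : y ∉ Γ i)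
    {L : Subgroup S} (h1 : Γ i ≤ L) (h2 : y ∈ L) : x ∈ L := by
  obtain ⟨d, hd, k, rfl⟩ := H9.mem_sup_zpowers.1 hy
  obtain ⟨a, b, hab⟩ := ((Nat.prime_iff_prime_int.1 hp.out).coprime_iff_not_dvd).2
    fun e => hy' (mul_mem hd (zpow_mem_of h hx hi e))
  rw [← zpow_one x, ← hab, zpow_add, mul_comm b, zpow_mul x k]
  exact mul_mem (h1 (zpow_mem_of h hx hi (dvd_mul_left _ _)))
    (zpow_mem ((Subgroup.mul_mem_cancel_left _ (h1 hd)).1 h2) b)

variable {ι : S →* G} (hι : Function.Injective ι) {N : Subgroup G} [N.Normal]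
  (hN : Γ (n - 2) ≤ N.comap ι) (hxN : ι x ∉ N)
include hι hN hxN

theorem conj_notMem (hi : 1 ≤ i) {g : G}
    (hg : g ∈ normalizer ((Γ i ⊔ zpowers x).map ι : Set G)) {y : S} (e : ι y = g * ι x * g⁻¹) :
    y ∉ Γ i := fun hy => by
  by_cases h1 : n - 2 ≤ i
  · refine hxN ?_
    simpa [e, mul_assoc] using ‹N.Normal›.conj_mem _ (mem_comap.1 (hN (h.anti h1 hy))) g⁻¹
  have key : ∀ k, zpowers g ≤ normalizer ((Γ (i + k + 1)).map ι : Set G) := fun k => by
    induction k with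
    | zero =>
      rw [add_zero, le_antisymm ((le_comm h hx hi (mem_sup_right (mem_zpowers x))).trans
        (commutator_mono le_sup_left le_rfl)) (comm_U h i), map_commutator]
      exact le_normalizer_commutator (zpowers_le.2 hg) (zpowers_le.2 hg)
    | succ k ih =>
      rw [← add_assoc, le_antisymm (le_comm h hx (by omega) (mem_sup_right (mem_zpowers x)))
        ((commutator_mono le_rfl (le_top (a := Γ i ⊔ zpowers x))).trans (h.comm_top_le _)),
        map_commutator]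
      exact le_normalizer_commutator ih (zpowers_le.2 hg)
  refine hx (i + 1) (by omega) (by omega) (mem_secCent.2 fun w hw => ?_)
  obtain ⟨v, hv, e1⟩ := conj_mem_of_mem_normalizer (key 0 (mem_zpowers g)) (mem_map_of_mem ι hw)
  have h2 : ⁅v, y⁆ ∈ Γ (i + 2 + 1) := by
    rcases hi.eq_or_lt with rfl | hi
    · exact h.two (commutator_mem_commutator hv hy)
    · exact h.anti (by omega) (h.comm_le (by omega) hi.le (commutator_mem_commutator hv hy))
  have := conj_mem_of_mem_normalizer' (key 2 (mem_zpowers g)) (mem_map_of_mem ι h2)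
  rwa [map_commutatorElement, e1, e, show g⁻¹ * ⁅g * ι w * g⁻¹, g * ι x * g⁻¹⁆ * g = ⁅ι w, ι x⁆ by
    simp only [commutatorElement_def]; group, ← map_commutatorElement, mem_map_iff_mem hι] at this

include hx1

theorem core (hi : i + 2 ≤ n)
    (hs : IsSyl p ((Γ i ⊔ zpowers x).map ι) (normalizer ((Γ (i + 1) ⊔ zpowers x).map ι : Set G)))
    {Q : Subgroup G} (hQ : IsPGroup p Q) (h1 : (Γ (i + 1) ⊔ zpowers x).map ι ≤ Q)
    (h2 : Q ≤ normalizer ((Γ (i + 1) ⊔ zpowers x).map ι : Set G))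
    (h3 : ¬ Q ≤ (Γ (i + 1) ⊔ zpowers x).map ι) :
    ∃ g ∈ normalizer ((Γ (i + 1) ⊔ zpowers x).map ι : Set G), ∃ q ∈ Q, ∃ y z, ι y = g * q * g⁻¹ ∧
      ι z = g * ι x * g⁻¹ ∧ ⁅y, z⁆ ∈ Γ (i + 1) ∧ ⁅y, z⁆ ∉ Γ (i + 2) ∧ Unif Γ (n - 2) z ∧
        ∀ L, Γ (i + 1) ≤ L → z ∈ L → x ∈ L := by
  obtain ⟨g, hg, h4⟩ := hs.exists_cj_le hQ h2
  obtain ⟨q, hq, hq'⟩ := SetLike.not_le_iff_exists.1 h3
  obtain ⟨_, hd, e⟩ := h4 (conj_mem_cj hq)
  obtain ⟨y, hy, k, rfl⟩ := H9.mem_sup_zpowers.1 hd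
  have hk : x ^ k ∈ Γ (i + 1) ⊔ zpowers x := mem_sup_right (zpow_mem_zpowers x k)
  have h5 : y ∉ Γ (i + 1) ⊔ zpowers x := fun f => hq' (by
    simpa [e, mul_assoc] using conj_mem_of_mem_normalizer' hg (mem_map_of_mem ι (mul_mem f hk)))
  have hi1 : 1 ≤ i := Nat.pos_of_ne_zero (by
    rintro rfl
    exact h5 ((h.gen (h.zero ▸ mem_top x) hx1).ge hy))
  obtain ⟨z, hz, e1⟩ := conj_mem_of_mem_normalizer hg
    (mem_map_of_mem ι (mem_sup_right (mem_zpowers x)))
  have h6 := fun L => mem_of_U h hx (L := L) (by omega) hz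
    (conj_notMem h hx hι hN hxN (by omega) hg e1)
  have h7 : Unif Γ (n - 2) z := fun j j1 j2 f =>
    hx j j1 j2 (h6 _ ((h.anti (by omega)).trans (h.two_le_K j1)) f)
  refine ⟨g, hg, _, mul_mem hq (inv_mem (h1 (conj_mem_of_mem_normalizer' hg (mem_map_of_mem ι hk)))),
    y, z, ?_, e1, h.comm_mem hy z, h.comm_notMem hy (fun f => h5 (mem_sup_left f))
      (h7 i hi1 (by omega)), h7, h6⟩
  rw [eq_mul_inv_iff_mul_eq.2 ((map_mul ι y _).symm.trans e)]; group

theorem syl (hS : IsSyl p ι.range ⊤) (hi : i + 2 ≤ n) :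
    IsSyl p ((Γ i ⊔ zpowers x).map ι) (normalizer ((Γ (i + 1) ⊔ zpowers x).map ι : Set G)) := by
  have hle : ∀ i, (Γ i ⊔ zpowers x).map ι ≤ normalizer ((Γ (i + 1) ⊔ zpowers x).map ι : Set G) :=
    fun i => le_trans (map_mono fun a ha => mem_normalizer_of_cj_le ?_) (le_normalizer_map ι)
  swap
  · rintro _ ⟨b, hb, rfl⟩
    have := comm_U h i (commutator_mem_commutator ha (sup_le_sup_right (h.succ_le i) _ hb))
    simpa [commutatorElement_def] using mul_mem (mem_sup_left this) hb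
  induction i with
  | zero =>
    refine IsSyl.of_le ?_ (hle 0) le_top
    rwa [h.zero, top_sup_eq, ← MonoidHom.range_eq_map]
  | succ i ih =>
    refine isSyl_of_isSyl_normalizer ⟨le_inf (hle _) le_normalizer, (h.isPGroup.to_subgroup _).map ι,
      fun Q hQ h1 h2 => le_antisymm (by_contra fun h3 => ?_) h1⟩
    obtain ⟨g, hg, q, hq, y, z, e1, e2, f1, f2, f3, f4⟩ := core h hx hx1 hι hN hxN (by omega)
      (ih (by omega)) hQ h1 (h2.trans inf_le_right) h3
    have hx2 : ι x ∈ (Γ (i + 1 + 1) ⊔ zpowers x).map ι := mem_map_of_mem ι (mem_sup_right (mem_zpowers x))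
    have h4 : z ∈ (cj g ((Γ (i + 1 + 1) ⊔ zpowers x).map ι)).comap ι := mem_comap.2 (e2 ▸ conj_mem_cj hx2)
    have h5 := f3.le_of_mem h (by omega) f1 f2 h4 (mem_comap.2 (by
      rw [map_commutatorElement, e1, e2, mem_cj]
      simpa [commutatorElement_def, mul_assoc] using
        mul_mem (conj_mem_of_mem_normalizer (h2 hq).1 hx2) (inv_mem hx2)))
    obtain ⟨w, hw, hw'⟩ := h.exists_gen (i := i + 1) (by omega)
    obtain ⟨v, hv, e3⟩ := conj_mem_of_mem_normalizer hg (mem_map_of_mem ι (mem_sup_left hw))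
    have h6 := mem_cj.1 (mem_comap.1 (sup_le h5 (zpowers_le.2 (f4 _ h5 h4)) hv))
    rw [e3, show g⁻¹ * (g * ι w * g⁻¹) * g = ι w by group, mem_map_iff_mem hι] at h6
    exact hx1 (mem_of_U h hx (by omega) h6 hw' (h.anti (by omega)) (h.anti (by omega) hw))

/-- the centralizer of a uniform element outside `N` has `p`-part `p ^ 2` -/
theorem fact_two (hS : IsSyl p ι.range ⊤) (hn : 3 ≤ n) :
    (Nat.card (centralizer ({ι x} : Set G))).factorization p = 2 := by
  have h0 : n - 2 + 1 = n - 1 := by omega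
  have h1 : IsSyl p ((Γ (n - 2 + 1) ⊔ zpowers x).map ι) (centralizer {ι x}) := by
    refine isSyl_of_isSyl_normalizer ⟨le_inf ?_ le_normalizer, (h.isPGroup.to_subgroup _).map ι,
      fun Q hQ h1 h2 => le_antisymm (by_contra fun h3 => ?_) h1⟩
    · rintro _ ⟨a, ha, rfl⟩
      rw [h0, ← h.center_eq hn] at ha
      rw [mem_centralizer_singleton_iff, ← map_mul, ← map_mul]
      exact congrArg ι (mem_centralizer_singleton_iff.1 (sup_le (center_le_centralizer _)
        (zpowers_le.2 (mem_centralizer_singleton_iff.2 rfl)) ha))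
    obtain ⟨g, -, q, hq, y, z, e1, e2, -, f2, -⟩ := core h hx hx1 hι hN hxN (by omega)
      (syl h hx hx1 hι hN hxN hS (by omega)) hQ h1 (h2.trans inf_le_right) h3
    refine f2 ((commutatorElement_eq_one_iff_mul_comm.2 (hι ?_)).symm ▸ one_mem _)
    rw [map_mul, map_mul, e1, e2, conj_mul, conj_mul, mem_centralizer_singleton_iff.1 (h2 hq).1]
  have h2 := h1.card_eq
  rw [card_map_of_injective hι, H9.card_sup_zpowers (fun e => hx1 (h.anti (by omega) e))
    (hx.pow_mem h), h.card, ← pow_succ'] at h2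
  have := Nat.pow_right_injective hp.out.two_le h2
  omega

end chain

theorem exists_chain (hS : Nat.card S = p ^ n) (hc : Group.nilpotencyClass S = n - 1) (hn : 3 ≤ n)
    (hna : ¬ IsMulCommutative S) {Q : Subgroup S} [Q.Normal] (h1 : Q ≠ ⊤) :
    ∃ (Γ : ℕ → Subgroup S) (_ : ∀ j, (Γ j).Normal), MaxCl p n Γ ∧ (Q ≤ Γ 1 ∨ 4 ≤ n) := by
  rcases hn.eq_or_lt with rfl | hn
  · have hP : IsPGroup p S := .of_card hS
    obtain ⟨k, hk⟩ := IsPGroup.iff_card.1 (hP.to_subgroup Q)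
    have h2 := H9.mul_card_le_of_lt hP (lt_top_iff_ne_top.2 h1)
    rw [Subgroup.card_top, hS, hk, ← pow_succ', Nat.pow_le_pow_iff_right hp.out.one_lt] at h2
    obtain ⟨M, hM, h3⟩ := Sylow.exists_subgroup_card_pow_prime_le p (m := 2)
      (hS ▸ pow_dvd_pow p (by omega)) Q hk (by omega)
    obtain ⟨i, h⟩ := maxCl_three hS hna hM
    exact ⟨_, i, h, .inl h3⟩
  · exact ⟨_, inferInstance, maxCl_mcs hS hc hn, .inr hn⟩

end H84.MCS
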