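import Cfsg.Agent.H42.PnSpec

/-! PN tower (S3399), slot `PN-SQ2`: no quadruple system with even blocks; the alternating group is
not a counterexample. -/

set_option autoImplicit false
set_option linter.unusedSectionVars false

namespace H84.PnSq2

open Equiv MulAction Pointwise H2.Ln H42.PN

variable {α : Type} [Fintype α] [DecidableEq α] {G K : Subgroup (Perm α)}

theorem fp_mem : fp K ∈ bl G K := mem_bl.2 ⟨1, G.one_mem, one_smul _ _⟩

theorem card_bl {B : Finset α} (h : B ∈ bl G K) : B.card = (fp K).card := by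
  obtain ⟨g, -, rfl⟩ := mem_bl.1 h
  exact Finset.card_smul_finset _ _

theorem fp_ne (h : Cx G K) : (fp K).Nonempty := Finset.card_pos.1 (by have := h.four; omega)

theorem par {a b c d a' b' c' d' : Prop} (h1 : (a ↔ b) ↔ (c ↔ d)) (h2 : (a' ↔ b') ↔ (c' ↔ d'))
    (hu : ¬ (a' ↔ a)) (hv : ¬ ¬ (b' ↔ b)) : ¬ (c' ↔ c) ↔ ¬ ¬ (d' ↔ d) := by
  grind

/-- two different blocks meet in half of their points -/
theorem meet (h : Cx G K) (s : Sig G K) {B : Finset α} (hB : B ∈ bl G K) (hne : B ≠ fp K) :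
    2 * (fp K ∩ B).card = (fp K).card := by
  obtain ⟨D, hD⟩ : ∃ D : Finset α, D = (fp K \ B) ∪ (B \ fp K) := ⟨_, rfl⟩
  have mD : ∀ x, x ∈ D ↔ ¬ (x ∈ fp K ↔ x ∈ B) := fun x => by
    rw [hD, Finset.mem_union, Finset.mem_sdiff, Finset.mem_sdiff]; tauto
  obtain ⟨u, hu⟩ : ∃ u, u ∈ D := by
    by_contra! k
    exact hne (Finset.ext fun x => (not_not.1 ((mD x).not.1 (k x))).symm)
  obtain ⟨v, hv⟩ : ∃ v, v ∉ D := by
    by_contra! k
    obtain ⟨g, hg, rfl⟩ := mem_bl.1 hB
    refine h.pro.nos (fp_ne h) hg (Finset.ext fun x => ?_)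
    have := (mD x).1 (k x)
    rw [Finset.mem_compl]; tauto
  have uv : u ≠ v := fun e => hv (e ▸ hu)
  obtain ⟨σ, hσ⟩ := s u v uv
  have key : ∀ x ∉ [u, v], (x ∈ D ↔ σ x ∉ D) := fun x hx => by
    have h1 := (hσ x hx).2.2 B hB
    have h2 := (hσ x hx).2.2 _ fp_mem
    rw [mD] at hu hv
    rw [mD, mD]
    exact par h1 h2 hu hv
  have o1 : ∀ x ∈ D.erase u, x ∉ [u, v] := fun x hx => by
    obtain ⟨h1, h2⟩ := Finset.mem_erase.1 hx
    simp only [List.mem_cons, List.not_mem_nil, or_false, not_or]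
    exact ⟨h1, fun e => hv (e ▸ h2)⟩
  have o2 : ∀ x ∈ Dᶜ.erase v, x ∉ [u, v] := fun x hx => by
    obtain ⟨h1, h2⟩ := Finset.mem_erase.1 hx
    simp only [List.mem_cons, List.not_mem_nil, or_false, not_or]
    exact ⟨fun e => Finset.mem_compl.1 h2 (e ▸ hu), h1⟩
  have hc : (D.erase u).card = (Dᶜ.erase v).card := by
    refine Finset.card_nbij' σ σ (fun x hx => ?_) (fun x hx => ?_)
      (fun x hx => (hσ x (o1 x hx)).2.1) fun x hx => (hσ x (o2 x hx)).2.1
    · have h1 := (hσ x (o1 x hx)).1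
      simp only [List.mem_cons, List.not_mem_nil, or_false, not_or] at h1
      exact Finset.mem_erase.2 ⟨h1.2, Finset.mem_compl.2
        ((key x (o1 x hx)).1 (Finset.mem_erase.1 hx).2)⟩
    · have h1 := (hσ x (o2 x hx)).1
      simp only [List.mem_cons, List.not_mem_nil, or_false, not_or] at h1
      exact Finset.mem_erase.2 ⟨h1.1, not_not.1
        ((key x (o2 x hx)).not.1 (Finset.mem_compl.1 (Finset.mem_erase.1 hx).2))⟩
  have c1 := Finset.card_erase_add_one hu
  have c2 := Finset.card_erase_add_one (Finset.mem_compl.2 hv)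
  have c3 := Finset.card_add_card_compl D
  have c4 : D.card = (fp K \ B).card + (B \ fp K).card :=
    hD ▸ Finset.card_union_of_disjoint disjoint_sdiff_sdiff
  have c5 := Finset.card_sdiff_add_card_inter (fp K) B
  have c6 := Finset.card_sdiff_add_card_inter B (fp K)
  rw [Finset.inter_comm B, card_bl hB] at c6
  have := h.half
  omega

theorem jobSq2 : Half → Sq2 := by
  intro half α _ _ G K h s
  classical
  have h4 := h.four
  have hh := h.half
  have tr := (h.t3.t2 (by rw [Finset.card_univ]; omega)).tr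
  have lam := half α G K (fun a b => tr a (Finset.mem_univ _) b (Finset.mem_univ _)) h.half
  have e1 : ∑ B ∈ bl G K, 2 * (fp K ∩ B).card = (fp K).card * (bl G K).card := by
    have : ∀ B : Finset α, (fp K ∩ B).card = ∑ a ∈ fp K, if a ∈ B then 1 else 0 := fun B => by
      rw [← Finset.card_filter, Finset.filter_mem_eq_inter]
    simp only [this]
    rw [← Finset.mul_sum, Finset.sum_comm, Finset.mul_sum, ← smul_eq_mul, ← Finset.sum_const]
    exact Finset.sum_congr rfl fun a _ => by rw [← Finset.card_filter]; exact lam a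
  rw [← Finset.add_sum_erase _ _ (fp_mem (G := G) (K := K)), Finset.inter_self,
    Finset.sum_congr rfl fun B hB =>
      meet h s (Finset.mem_erase.1 hB).2 (Finset.mem_erase.1 hB).1,
    Finset.sum_const, smul_eq_mul, ← Finset.card_erase_add_one (fp_mem (G := G) (K := K))] at e1
  nlinarith

theorem jobNoAlt : NoAlt := by
  intro α _ _ G K h hA
  have h4 := h.four
  have hh := h.half
  obtain ⟨π, hπ⟩ := Equiv.Perm.exists_map_finset_eq (fp K) (fp K)ᶜ (by
    have := Finset.card_add_card_compl (fp K); omega)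
  have e : π • fp K = (fp K)ᶜ := by
    rw [← hπ]; ext x; rw [mem_sm, Finset.mem_map_equiv]; rfl
  rcases Int.units_eq_one_or (Perm.sign π) with k | k
  · exact h.pro.nos (fp_ne h) (hA (Perm.mem_alternatingGroup.2 k)) e
  · obtain ⟨a, ha, b, hb, ab⟩ := Finset.one_lt_card.1 (show 1 < (fp K).card by omega)
    refine h.pro.nos (fp_ne h) (g := π * swap a b) (hA (Perm.mem_alternatingGroup.2 ?_)) ?_
    · rw [map_mul, k, Perm.sign_swap ab]; simp
    · rw [mul_smul, (sm_eq_iff (x := swap a b)).2 fun x hx => ?_, e]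
      rw [swap_apply_def]
      split_ifs <;> assumption

end H84.PnSq2
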