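import Cfsg.Agent.H2.SpSpec
import Cfsg.Agent.H90.Carm2

/-! SPIN tower, slot PIN: Clifford matrices and the Pin cover of a symmetric group. -/

set_option autoImplicit false
set_option linter.unusedSectionVars false

namespace H84.SpPin
open Equiv H57

universe u

theorem cliff_aux (n : ℕ) : ∃ (ι : Type) (_ : Fintype ι), Fintype.card ι = 2 * n + 1 ∧
    ∃ (V : Type) (_ : AddCommGroup V) (_ : Module ℂ V) (_ : FiniteDimensional ℂ V)
      (a : ι → Module.End ℂ V), (∀ i, a i * a i = 1) ∧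
      (∀ i j, i ≠ j → a i * a j = -(a j * a i)) ∧ Module.finrank ℂ V = 2 ^ n := by
  induction n with
  | zero =>
    exact ⟨Unit, inferInstance, rfl, ℂ, inferInstance, inferInstance, inferInstance, fun _ => 1,
      fun _ => mul_one _, fun i j h => absurd rfl h, by simp⟩
  | succ n ih =>
    obtain ⟨ι, _, hc, V, _, _, _, a, h1, h2, h3⟩ := ih
    have s1 : ∀ i x, a i (a i x) = x := fun i x => LinearMap.congr_fun (h1 i) x
    have s2 : ∀ i j, i ≠ j → ∀ x, a i (a j x) = -a j (a i x) := fun i j h x =>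
      LinearMap.congr_fun (h2 i j h) x
    let b : Option (Option ι) → Module.End ℂ (V × V) := fun k => match k with
      | none => (LinearMap.snd ℂ V V).prod (LinearMap.fst ℂ V V)
      | some none => ((-Complex.I) • LinearMap.snd ℂ V V).prod (Complex.I • LinearMap.fst ℂ V V)
      | some (some k) => (a k).prodMap (-a k)
    refine ⟨Option (Option ι), inferInstance, by simp [hc]; ring, V × V, inferInstance,
      inferInstance, inferInstance, b, ?_, ?_, by rw [Module.finrank_prod, h3]; ring⟩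
    · rintro (_ | _ | k) <;> refine LinearMap.ext fun ⟨x, y⟩ => ?_ <;>
        simp [b, smul_smul, s1]
    · rintro (_ | _ | k) (_ | _ | l) h <;> refine LinearMap.ext fun ⟨x, y⟩ => ?_ <;>
        first
        | exact absurd rfl h
        | simp [b, s2 k l fun e => h (by rw [e])]
        | simp [b]

theorem jobCliff : H2.Sp.Cliff := by
  intro Ω _
  obtain ⟨ι, _, hc, V, _, _, _, a, h1, h2, h3⟩ := cliff_aux (Fintype.card Ω)
  let e : Option (Ω ⊕ Ω) ≃ ι := Fintype.equivOfCardEq (by simp [hc, two_mul])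
  exact ⟨V, inferInstance, inferInstance, inferInstance, fun i => a (e i), fun i => h1 _,
    fun i j h => h2 _ _ (e.injective.ne h), h3⟩

section
variable {Ω A : Type} [Fintype Ω] [DecidableEq Ω] [Ring A] [Algebra ℂ A]

/-- A Clifford family. -/
structure Cl (a : Option (Ω ⊕ Ω) → A) : Prop where
  sq : ∀ i, a i * a i = 1
  anti : ∀ i j, i ≠ j → a i * a j = -(a j * a i)

/-- The action on the indices. -/
def mv (σ : Perm Ω) (k : Option (Ω ⊕ Ω)) : Option (Ω ⊕ Ω) := k.map (Sum.map σ id)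

omit [Fintype Ω] [DecidableEq Ω] in
theorem mv_mul (σ τ : Perm Ω) (k : Option (Ω ⊕ Ω)) : mv (σ * τ) k = mv σ (mv τ k) := by
  rcases k with _ | k | k <;> rfl

omit [Fintype Ω] [DecidableEq Ω] in
theorem mv_one (k : Option (Ω ⊕ Ω)) : mv 1 k = k := by
  rcases k with _ | k | k <;> rfl

/-- The pairs that permute the family up to the sign. -/
def Act (a : Option (Ω ⊕ Ω) → A) : Subgroup (Aˣ × Perm Ω) where
  carrier := {g | ∀ k, (g.1 : A) * a k = ((Perm.sign g.2 : ℤ) : ℂ) • (a (mv g.2 k) * g.1)}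
  one_mem' := fun k => by simp [mv_one]
  mul_mem' := fun {g h} hg hh k => by
    simp only [Prod.fst_mul, Prod.snd_mul, Units.val_mul, mv_mul, map_mul, Int.cast_mul]
    rw [mul_assoc, hh k, mul_smul_comm, ← mul_assoc, hg, smul_mul_assoc, smul_smul, mul_comm,
      mul_assoc]
  inv_mem' := fun {g} hg k => by
    have h1 := hg (mv g.2⁻¹ k)
    rw [← mv_mul, mul_inv_cancel, mv_one] at h1
    have h2 : ((Perm.sign g.2 : ℤ) : ℂ) * ((Perm.sign g.2 : ℤ) : ℂ) = 1 := by
      rw [← Int.cast_mul, ← Units.val_mul, Int.units_mul_self]; simp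
    have h3 : a (mv g.2⁻¹ k) * (g.1⁻¹ : Aˣ) =
        ((Perm.sign g.2 : ℤ) : ℂ) • (((g.1⁻¹ : Aˣ) : A) * a k) := by
      calc a (mv g.2⁻¹ k) * (g.1⁻¹ : Aˣ)
          = (g.1⁻¹ : Aˣ) * ((g.1 : A) * a (mv g.2⁻¹ k)) * (g.1⁻¹ : Aˣ) := by
            rw [Units.inv_mul_cancel_left]
        _ = _ := by rw [h1, mul_smul_comm, smul_mul_assoc, mul_assoc, Units.mul_inv_cancel_right]
    show ((g.1⁻¹ : Aˣ) : A) * a k = ((Perm.sign g.2⁻¹ : ℤ) : ℂ) • (a (mv g.2⁻¹ k) * (g.1⁻¹ : Aˣ))
    rw [Perm.sign_inv, h3, smul_smul, h2, one_smul]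

/-- The lift of a transposition. -/
noncomputable def t (a : Option (Ω ⊕ Ω) → A) (i j : Ω) : A :=
  ((Real.sqrt 2 : ℝ) : ℂ)⁻¹ • (a (some (.inl i)) - a (some (.inl j)))

theorem ss : ((Real.sqrt 2 : ℝ) : ℂ)⁻¹ * ((Real.sqrt 2 : ℝ) : ℂ)⁻¹ = 2⁻¹ := by
  rw [← mul_inv, ← Complex.ofReal_mul, Real.mul_self_sqrt (by norm_num)]; simp

variable {a : Option (Ω ⊕ Ω) → A}

omit [Fintype Ω] [DecidableEq Ω] in
theorem t_swap (i j : Ω) : t a j i = -t a i j := by rw [t, t, ← smul_neg, neg_sub]

omit [Fintype Ω] [DecidableEq Ω] in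
theorem Cl.t_sq (h : Cl a) {i j : Ω} (hij : i ≠ j) : t a i j * t a i j = 1 := by
  have e := h.anti (some (.inl j)) (some (.inl i)) (by simpa using hij.symm)
  rw [t, smul_mul_smul_comm, ss, sub_mul, mul_sub, mul_sub, h.sq, h.sq, e,
    show ∀ x : A, 1 - x - (-x - 1) = (2 : ℂ) • (1 : A) from fun x => by rw [two_smul]; abel,
    smul_smul]
  simp

omit [Fintype Ω] [DecidableEq Ω] in
theorem Cl.t_t (h : Cl a) {b k l : Ω} (hk : b ≠ k) (hl : b ≠ l) (hkl : k ≠ l) :
    t a b k * t a b l = 1 - t a b l * t a b k := by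
  have e1 := h.anti (some (.inl k)) (some (.inl b)) (by simpa using hk.symm)
  have e2 := h.anti (some (.inl l)) (some (.inl b)) (by simpa using hl.symm)
  have e3 := h.anti (some (.inl l)) (some (.inl k)) (by simpa using hkl.symm)
  rw [eq_sub_iff_add_eq, t, t, smul_mul_smul_comm, smul_mul_smul_comm, ss, ← smul_add]
  simp only [sub_mul, mul_sub, h.sq, e1, e2, e3]
  rw [show ∀ x y w : A, 1 - -x - (y - w) + (1 - -y - (x - -w)) = (2 : ℂ) • (1 : A) from
    fun x y w => by rw [two_smul]; abel, smul_smul]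
  simp

omit [Fintype Ω] in
theorem Cl.t_act (h : Cl a) (i j : Ω) (k : Option (Ω ⊕ Ω)) :
    t a i j * a k = -(a (mv (swap i j) k) * t a i j) := by
  rw [t, smul_mul_assoc, mul_smul_comm, ← smul_neg]
  congr 1
  by_cases h1 : k = some (.inl i)
  · subst h1
    have : mv (swap i j) (some (.inl i)) = some (.inl j) := by simp [mv]
    rw [this, sub_mul, mul_sub, h.sq, h.sq, neg_sub]
  by_cases h2 : k = some (.inl j)
  · subst h2
    have : mv (swap i j) (some (.inl j)) = some (.inl i) := by simp [mv]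
    rw [this, sub_mul, mul_sub, h.sq, h.sq, neg_sub]
  have : mv (swap i j) k = k := by
    rcases k with _ | k | k
    · rfl
    · simp only [mv, Option.map_some, Sum.map_inl]
      rw [swap_apply_of_ne_of_ne (fun e => h1 (by rw [e])) fun e => h2 (by rw [e])]
    · rfl
  rw [this, sub_mul, mul_sub, h.anti _ _ (Ne.symm h1), h.anti _ _ (Ne.symm h2)]
  abel

/-- The lift of a transposition, with the transposition. -/
noncomputable def Cl.T (h : Cl a) {i j : Ω} (hij : i ≠ j) : Aˣ × Perm Ω :=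
  (⟨t a i j, t a i j, h.t_sq hij, h.t_sq hij⟩, swap i j)

theorem Cl.T_sq (h : Cl a) {i j : Ω} (hij : i ≠ j) : h.T hij * h.T hij = 1 :=
  Prod.ext (Units.ext (h.t_sq hij)) (swap_mul_self i j)

theorem Cl.T_mem (h : Cl a) {i j : Ω} (hij : i ≠ j) : h.T hij ∈ Act a := fun k => by
  show t a i j * a k = ((Perm.sign (swap i j) : ℤ) : ℂ) • (a (mv (swap i j) k) * t a i j)
  rw [h.t_act, Perm.sign_swap hij]; simp

/-- The central element. -/
def Z (A Ω : Type) [Ring A] : Aˣ × Perm Ω := (-1, 1)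

theorem Z_mem : Z A Ω ∈ Act a := fun k => by simp [Z, mv_one]

omit [Fintype Ω] [DecidableEq Ω] [Algebra ℂ A] in
theorem Z_comm (g : Aˣ × Perm Ω) : Commute (Z A Ω) g := Prod.ext (by simp [Z]) (by simp [Z])

omit [Fintype Ω] [DecidableEq Ω] [Algebra ℂ A] in
theorem Z_sq : Z A Ω * Z A Ω = 1 := Prod.ext (by simp [Z]) (by simp [Z])

theorem Cl.T_swap (h : Cl a) {i j : Ω} (hij : i ≠ j) : h.T hij.symm = Z A Ω * h.T hij :=
  Prod.ext (Units.ext (by simp [Z, Cl.T, t_swap i j])) (by simp [Z, Cl.T, swap_comm])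

theorem Cl.T_conj (h : Cl a) {b i j : Ω} (hi : b ≠ i) (hj : b ≠ j) (hij : i ≠ j) :
    h.T hij = Z A Ω * (h.T hi * h.T hj * h.T hi) := by
  refine Prod.ext (Units.ext ?_) ?_
  · have e1 : mv (swap b i) (some (.inl b)) = some (.inl i) := by simp [mv]
    have e2 : mv (swap b i) (some (.inl j)) = some (.inl j) := by
      simp [mv, swap_apply_of_ne_of_ne hj.symm hij.symm]
    have : t a b i * t a b j = -(t a i j * t a b i) := by
      conv_lhs => enter [2]; rw [t]
      conv_rhs => enter [1, 1]; rw [t]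
      rw [mul_smul_comm, smul_mul_assoc, ← smul_neg, mul_sub, h.t_act, h.t_act, e1, e2,
        sub_mul]
      congr 1
      abel
    show t a i j = -1 * (t a b i * t a b j * t a b i)
    rw [this, neg_mul, neg_mul, mul_assoc, h.t_sq hi]; simp
  · show swap i j = 1 * (swap b i * swap b j * swap b i)
    ext y
    simp only [one_mul, Perm.mul_apply, swap_apply_def]
    grind

/-- The Carmichael generators. -/
noncomputable def Cl.Y (h : Cl a) {α β : Ω} (hab : β ≠ α) (i : {i // i ≠ α ∧ i ≠ β}) :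
    Aˣ × Perm Ω := Z A Ω * (h.T hab * h.T i.2.2.symm)

theorem Cl.Y_snd (h : Cl a) {α β : Ω} (hab : β ≠ α) (i : {i // i ≠ α ∧ i ≠ β}) :
    (h.Y hab i).2 = cyc α β i := by
  show 1 * (swap β α * swap β i) = _
  have h1 := i.2.1
  have h2 := i.2.2
  ext y
  simp only [one_mul, Perm.mul_apply, swap_apply_def, cyc_apply hab.symm i.2]
  grind

theorem Cl.car (h : Cl a) {α β : Ω} (hab : β ≠ α) : H90.Car2 (h.Y hab) (Z A Ω) := by
  have h3 : ∀ k, β ≠ k → ∀ y, t a β k * (t a β k * y) = y := fun k hk y => by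
    rw [← mul_assoc, h.t_sq hk, one_mul]
  have h4 : ∀ k l, β ≠ k → β ≠ l → k ≠ l → ∀ y,
      t a β k * (t a β l * y) = y - t a β l * (t a β k * y) := fun k l hk hl e y => by
    rw [← mul_assoc, h.t_t hk hl e, sub_mul, one_mul, mul_assoc]
  have hY : ∀ i, ((h.Y hab i).1 : A) = -(t a β α * t a β i) := fun i => by
    simp [Cl.Y, Cl.T, Z]
  refine ⟨fun i => Prod.ext (Units.ext ?_) ?_, fun i j e => Prod.ext (Units.ext ?_) ?_, Z_sq,
    fun i => (Z_comm _).eq⟩
  · have e := h4 i α i.2.2.symm hab i.2.1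
    simp only [hY, pow_succ, pow_zero, one_mul, mul_assoc, neg_mul, mul_neg, neg_neg, Prod.fst_one,
      Units.val_one, e, mul_sub, h3 _ hab, h3 _ i.2.2.symm, h.t_sq i.2.2.symm, h.t_sq hab, mul_one,
      Prod.fst_mul, Units.val_mul]
    noncomm_ring
  · rw [Prod.pow_snd, h.Y_snd, cyc_pow_three hab.symm i.2]; rfl
  · have e1 := h4 i α i.2.2.symm hab i.2.1
    have e2 := h4 j α j.2.2.symm hab j.2.1
    have e3 := h4 j i j.2.2.symm i.2.2.symm fun e' => e (Subtype.ext e'.symm)
    simp only [hY, pow_succ, pow_zero, one_mul, mul_assoc, neg_mul, mul_neg, neg_neg, Units.val_one,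
      e1, e2, e3, mul_sub, h3 _ hab, h3 _ i.2.2.symm, h3 _ j.2.2.symm, h.t_sq j.2.2.symm,
      h.t_sq i.2.2.symm, h.t_sq hab, mul_one, Prod.fst_mul, Units.val_mul, Z, Units.val_neg]
    noncomm_ring
  · rw [Prod.pow_snd, Prod.snd_mul, h.Y_snd, h.Y_snd,
      cyc_mul_sq hab.symm i.2 j.2 fun e' => e (Subtype.ext e')]; rfl

end

/-- A subgroup together with the coset of a normalising involution. -/
def Two {J : Type*} [Group J] (R : Subgroup J) (T : J) (h2 : T * T = 1)
    (hn : ∀ r ∈ R, T * r * T ∈ R) : Subgroup J where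
  carrier := {g | g ∈ R ∨ T * g ∈ R}
  one_mem' := Or.inl (one_mem _)
  mul_mem' := by
    have e : ∀ y, T * (T * y) = y := fun y => by rw [← mul_assoc, h2, one_mul]
    rintro g g' (hg | hg) (hg' | hg')
    · exact Or.inl (mul_mem hg hg')
    · exact Or.inr (by simpa [mul_assoc, e] using mul_mem (hn _ hg) hg')
    · exact Or.inr (by simpa [mul_assoc] using mul_mem hg hg')
    · exact Or.inl (by simpa [mul_assoc, e] using mul_mem (hn _ hg) hg')
  inv_mem' := by
    rintro g (hg | hg)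
    · exact Or.inl (inv_mem hg)
    · exact Or.inr (by simpa [mul_assoc] using hn _ (inv_mem hg))

theorem jobHasPin (hC : H2.Sp.Cliff) : H2.Sp.HasPin.{u} := by
  intro Ω _ _ H _ z π D
  obtain ⟨V, _, _, _, a, h1, h2, h3⟩ := hC Ω
  have h : Cl a := ⟨h1, h2⟩
  have h4 := D.three_lt
  have := D.finite
  obtain ⟨β, α, hab⟩ := Fintype.exists_pair_of_one_lt_card (by omega : 1 < Fintype.card Ω)
  obtain ⟨x, hx⟩ := D.exists_gens hab.symm
  let ι := {i // i ≠ α ∧ i ≠ β}
  have p : H90.CarP α β (Subtype.val : ι → Ω) := ⟨hab.symm, Subtype.val_injective, fun i => i.2,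
    Set.eq_univ_of_forall fun y => by
      by_cases e1 : y = α
      · simp [e1]
      by_cases e2 : y = β
      · simp [e2]
      exact Or.inl ⟨⟨y, e1, e2⟩, rfl⟩⟩
  have c : H90.Car2 (fun i : ι => x i) z := ⟨fun i => (hx i i.2).2,
    fun i j e => D.sq_gens hab.symm hx i.2 j.2 fun e' => e (Subtype.ext e'), D.zz,
    fun i => (D.cen _).eq⟩
  have ht : Subgroup.closure (Set.range fun i : ι => x i) = ⊤ := by
    rw [← D.closure_gens hab.symm hx (s := Finset.univ.filter fun i => i ≠ α ∧ i ≠ β) (by simp)]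
    congr 1
    ext g
    constructor
    · rintro ⟨i, rfl⟩
      exact ⟨i, by simp [i.2.1, i.2.2], rfl⟩
    · rintro ⟨i, hi, rfl⟩
      exact ⟨⟨i, by simpa using hi⟩, rfl⟩
  obtain ⟨φ, hφ⟩ := c.exists_hom (h.car hab) p π (fun i => (hx i i.2).1) D.πz D.ne ht
  have hπ : ∀ g, (φ g).2 = π g := fun g =>
    DFunLike.congr_fun (MonoidHom.eq_of_eqOn_dense ht (f := (MonoidHom.snd _ _).comp φ) (g := π) (by
      rintro _ ⟨i, rfl⟩
      show (φ (x i)).2 = π (x i)
      rw [hφ, h.Y_snd, (hx i i.2).1])) g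
  have hz : φ z = Z _ Ω := by
    have : 1 < Fintype.card ι := by
      have e1 : Fintype.card ι = ((Finset.univ.erase α).erase β).card := by
        rw [Fintype.card_subtype]; congr 1; ext y; simp [and_comm]
      rw [e1, Finset.card_erase_of_mem (by simpa using hab), Finset.card_erase_of_mem (by simp),
        Finset.card_univ]
      omega
    obtain ⟨i, j, e⟩ := Fintype.exists_pair_of_one_lt_card this
    rw [← c.h2 i j e, map_pow, map_mul, hφ, hφ, (h.car hab).h2 i j e]
  have hZ : Z (Module.End ℂ V) Ω ≠ 1 := fun e => by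
    have : Nontrivial V := Module.nontrivial_of_finrank_pos (R := ℂ) (by rw [h3]; positivity)
    obtain ⟨v, hv⟩ := exists_ne (0 : V)
    have e1 : -v = v := LinearMap.congr_fun (congrArg (fun g => (g.1 : Module.End ℂ V)) e) v
    have e2 : (2 : ℂ) • v = 0 := by rw [two_smul]; nth_rewrite 1 [← e1]; exact neg_add_cancel v
    exact hv ((smul_eq_zero.1 e2).resolve_left two_ne_zero)
  have hR : φ.range = Subgroup.closure (Set.range (h.Y hab)) := by
    rw [MonoidHom.range_eq_map, ← ht, MonoidHom.map_closure, ← Set.range_comp]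
    congr 2
    exact funext hφ
  have hY : ∀ i, h.Y hab i ∈ φ.range := fun i => ⟨_, hφ i⟩
  have e2 : ∀ {i j : Ω} (hij : i ≠ j) y, h.T hij * (h.T hij * y) = y := fun hij y => by
    rw [← mul_assoc, h.T_sq, one_mul]
  have hn : ∀ r ∈ φ.range, h.T hab * r * h.T hab ∈ φ.range := by
    have hi : (h.T hab)⁻¹ = h.T hab := inv_eq_of_mul_eq_one_right (h.T_sq hab)
    have : φ.range ≤ φ.range.comap (MulAut.conj (h.T hab)).toMonoidHom := by
      conv_lhs => rw [hR]
      rw [Subgroup.closure_le]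
      rintro _ ⟨i, rfl⟩
      have : h.T hab * h.Y hab i * (h.T hab)⁻¹ = (h.Y hab i)⁻¹ := by
        refine eq_inv_of_mul_eq_one_left ?_
        rw [hi, Cl.Y, ← mul_assoc (h.T hab), ← (Z_comm _).eq, mul_assoc (Z _ _), e2,
          (Z_comm (h.T hab * _)).eq]
        simp only [mul_assoc, e2, Z_sq]
      show h.T hab * h.Y hab i * (h.T hab)⁻¹ ∈ φ.range
      rw [this]
      exact inv_mem (hY i)
    intro r hr
    have h5 : h.T hab * r * (h.T hab)⁻¹ ∈ φ.range := this hr
    rwa [hi] at h5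
  let G := Two φ.range (h.T hab) (h.T_sq hab) hn
  have hG : ∀ g, g ∈ G ↔ g ∈ φ.range ∨ h.T hab * g ∈ φ.range := fun _ => Iff.rfl
  have hfin : Finite G := by
    have f1 : (φ.range : Set ((Module.End ℂ V)ˣ × Perm Ω)).Finite := Set.finite_range φ
    exact (f1.union (f1.preimage (f := (h.T hab * ·)) (mul_right_injective _).injOn)).to_subtype
  have hZG : Z _ Ω ∈ G := Or.inl ⟨z, hz⟩
  have hTG : h.T hab ∈ G := Or.inr (by rw [h.T_sq]; exact one_mem _)
  have hA : G ≤ Act a := by
    have : φ.range ≤ Act a := by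
      rw [hR, Subgroup.closure_le]
      rintro _ ⟨i, rfl⟩
      exact mul_mem Z_mem (mul_mem (h.T_mem _) (h.T_mem _))
    rintro g (hg | hg)
    · exact this hg
    · exact (Subgroup.mul_mem_cancel_left _ (h.T_mem hab)).1 (this hg)
  have hb : ∀ k (hk : β ≠ k), h.T hk ∈ G := fun k hk => by
    by_cases e : k = α
    · subst e; exact hTG
    · have : h.Y hab ⟨k, e, hk.symm⟩ ∈ G := Or.inl (hY _)
      exact (Subgroup.mul_mem_cancel_left _ hTG).1 ((Subgroup.mul_mem_cancel_left _ hZG).1 this)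
  have hT : ∀ i j (hij : i ≠ j), h.T hij ∈ G := fun i j hij => by
    by_cases e1 : β = i
    · subst e1; exact hb _ _
    by_cases e2 : β = j
    · subst e2
      rw [h.T_swap hij.symm]
      exact mul_mem hZG (hb _ _)
    rw [h.T_conj e1 e2 hij]
    exact mul_mem hZG (mul_mem (mul_mem (hb _ _) (hb _ _)) (hb _ _))
  let P : H2.Sp.Pin Ω G V :=
    { π := (MonoidHom.snd _ _).comp G.subtype
      ρ := (Units.coeHom _).comp ((MonoidHom.fst _ _).comp G.subtype)
      z := ⟨_, hZG⟩
      a := a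
      sq := h1
      anti := h2
      dim := h3
      surj := fun σ => by
        rcases Int.units_eq_one_or (Perm.sign σ) with e | e
        · obtain ⟨g, rfl⟩ := D.lift e
          exact ⟨⟨φ g, Or.inl ⟨g, rfl⟩⟩, hπ g⟩
        · obtain ⟨g, hg⟩ := D.lift (σ := swap β α * σ) (by simp [hab, e])
          refine ⟨⟨h.T hab * φ g, mul_mem hTG (Or.inl ⟨g, rfl⟩)⟩, ?_⟩
          show swap β α * (φ g).2 = σ
          rw [hπ, hg, swap_mul_self_mul]
      ker := by
        rintro ⟨g, hg⟩
        show g.2 = 1 ↔ _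
        constructor
        · intro e
          rcases hg with ⟨k, rfl⟩ | ⟨k, hk⟩
          · rcases (D.ker k).1 (hπ k ▸ e) with rfl | rfl
            · exact Or.inl (Subtype.ext (map_one φ))
            · exact Or.inr (Subtype.ext hz)
          · have e1 := D.sign_π k
            rw [← hπ, hk, Prod.snd_mul, e, mul_one] at e1
            exact absurd ((Perm.sign_swap hab).symm.trans e1) (by decide)
        · rintro (e | e) <;> rw [show g = _ from congrArg Subtype.val e] <;> rfl
      ne := fun e => hZ (congrArg Subtype.val e)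
      cen := fun g => Subtype.ext (Z_comm g.1).eq
      ρz := rfl
      actγ := fun g i => hA g.2 (some (.inl i))
      actδ := fun g i => hA g.2 (some (.inr i))
      actP := fun g => hA g.2 none
      swp := fun i j hij => ⟨⟨_, hT i j hij⟩, rfl, rfl⟩ }
  refine ⟨G, V, inferInstance, Fintype.ofFinite G, inferInstance, inferInstance, inferInstance, P,
    φ.codRestrict G fun g => Or.inl ⟨g, rfl⟩, (injective_iff_map_eq_one _).2 fun g e => ?_, hπ⟩
  have e1 : φ g = 1 := congrArg Subtype.val e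
  rcases (D.ker g).1 (by rw [← hπ, e1]; rfl) with rfl | rfl
  · rfl
  · exact absurd (hz.symm.trans e1) hZ

end H84.SpPin
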