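/- VC tower (S4070), job FIX: fixed spaces of linear elements (blueprints/VC.md). -/
import Cfsg.Agent.H91.VCSpec

set_option autoImplicit false
set_option linter.unusedSectionVars false

namespace H84.VcFix

open H33.Solv H91.VC Subgroup Module
open scoped commutatorElement

variable {K G V W : Type} [Field K] [Finite K] [Group G] [Finite G] [AddCommGroup V] [Module K V]
  [Finite V] [Nontrivial V] [DistribMulAction G V] [AddCommGroup W] [Finite W]
  [DistribMulAction G W] {s : Scal K G V} {N : Subgroup G} {π : G → W}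

theorem mem_eig {g : G} (hg : ∀ z ∈ s.ι.range, z * g = g * z) (μ : K) (v : V) :
    v ∈ (s.toLin hg).eigenspace μ ↔ g • v = μ • v := End.mem_eigenspace_iff

theorem card_fix {g : G} (hg : ∀ z ∈ s.ι.range, z * g = g * z) :
    Nat.card (fix V g) = Nat.card K ^ finrank K ((s.toLin hg).eigenspace 1) := by
  rw [← Module.natCard_eq_pow_finrank]
  exact Nat.card_congr (Equiv.subtypeEquivRight fun v => by rw [mem_eig, one_smul, mem_fix])

/-- A non-scalar element of `N` fixes at most the `r`-th part of the space. -/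
theorem dim_N (c : Cx s N π) {y : G} (hy : y ∈ N) (hz : y ∉ s.ι.range) :
    finrank K ((s.toLin (c.ns.cent y hy)).eigenspace 1) ≤ finrank K V / (Nat.card W).minFac := by
  classical
  obtain ⟨b, hb, ne⟩ : ∃ b ∈ N, b * y ≠ y * b := by
    by_contra! h
    exact hz (c.ns.n2 y h)
  obtain ⟨ζ, hζ⟩ := c.ns.comm y hy b hb
  have h1 : ζ ≠ 1 := fun e => ne (by
    rw [e, map_one] at hζ
    exact (commutatorElement_eq_one_iff_mul_comm.1 hζ.symm).symm)
  have h2 : ζ ^ Nat.card W = 1 := s.inj (by
    rw [map_pow, hζ, map_one]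
    refine c.ns.comm_pow hy hb ((c.sec.zero _ (pow_mem hy _)).1 ?_)
    rw [c.sec.pow hy, card_nsmul_eq_zero'])
  have h3 : (Nat.card W).minFac ≤ orderOf ζ := Nat.minFac_le_of_dvd (by
    have := orderOf_pos ζ
    have := mt orderOf_eq_one_iff.1 h1
    omega) (orderOf_dvd_of_pow_eq_one h2)
  have h4 : ∀ v : V, y • v = v → ∀ i : ℕ, y • b ^ i • v = ((ζ ^ i : Kˣ) : K) • b ^ i • v := by
    intro v hv i
    induction i with
    | zero => simpa using hv
    | succ i ih =>
      have e : y * b = s.ι ζ * b * y := by rw [hζ, commutatorElement_def]; group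
      rw [pow_succ' b, mul_smul, ← mul_smul y b, e, mul_smul, mul_smul, ih,
        s.lin (c.ns.cent b hb), s.smul, smul_smul, pow_succ' ζ, Units.val_mul]
  have hi : iSupIndep fun i : Fin (Nat.card W).minFac =>
      (s.toLin (c.ns.cent y hy)).eigenspace ((ζ ^ (i : ℕ) : Kˣ) : K) :=
    (End.eigenspaces_iSupIndep _).comp fun i j e => Fin.ext
      (pow_injOn_Iio_orderOf (i.2.trans_le h3) (j.2.trans_le h3) (Units.ext e))
  have h5 := Nat.card_le_card_of_injective
    (fun w : Fin (Nat.card W).minFac → fix V y =>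
      ∑ i : Fin (Nat.card W).minFac, b ^ i.1 • (w i : V)) fun w w' e => by
      funext i
      have := (iSupIndep_iff_finsetSum_eq_imp_eq _).1 hi Finset.univ
        (fun i => b ^ i.1 • (w i : V)) (fun i => b ^ i.1 • (w' i : V))
        (fun i _ => ⟨(mem_eig _ _ _).2 (h4 _ (w i).2 i), (mem_eig _ _ _).2 (h4 _ (w' i).2 i)⟩) e i
        (Finset.mem_univ i)
      exact Subtype.ext (MulAction.injective _ this)
  rw [Nat.card_fun, Nat.card_eq_fintype_card (α := Fin _), Fintype.card_fin,
    card_fix (c.ns.cent y hy), ← pow_mul, Module.natCard_eq_pow_finrank (K := K) (V := V)] at h5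
  exact (Nat.le_div_iff_mul_le (Nat.minFac_pos _)).2
    ((Nat.pow_le_pow_iff_right Finite.one_lt_card).1 h5)

theorem fixC (c : Cx s N π) {g : G} (hg : ∀ z ∈ s.ι.range, z * g = g * z) (hz : g ∉ s.ι.range) :
    finrank K ((s.toLin hg).eigenspace 1) ≤
      (finrank K V + finrank K V / (Nat.card W).minFac) / 2 := by
  by_cases hN : g ∈ N
  · have h1 := dim_N c hN hz
    have h2 := Nat.div_le_self (finrank K V) (Nat.card W).minFac
    change finrank K ((s.toLin hg).eigenspace 1) ≤ _ at h1
    omega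
  obtain ⟨x, hx, nz⟩ : ∃ x ∈ N, ⁅g, x⁆ ∉ s.ι.range := by
    by_contra! h
    exact hN (c.ns.n3 hg h)
  have hy : ⁅g, x⁆ ∈ N := mul_mem (c.ns.nn.conj_mem x hx g) (inv_mem hx)
  have h1 := dim_N c hy nz
  set F := (s.toLin hg).eigenspace 1
  have hi : Function.Injective (s.toLin (c.ns.cent x hx)) := MulAction.injective x
  have h2 := Submodule.finrank_sup_add_finrank_inf_eq F (F.map (s.toLin (c.ns.cent x hx)))
  have h3 : finrank K (F.map (s.toLin (c.ns.cent x hx))) = finrank K F :=
    (Submodule.equivMapOfInjective _ hi F).finrank_eq.symm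
  have h4 := Submodule.finrank_le (F ⊔ F.map (s.toLin (c.ns.cent x hx)))
  have h5 : F ⊓ F.map (s.toLin (c.ns.cent x hx)) ≤ (s.toLin (c.ns.cent _ hy)).eigenspace 1 := by
    rintro _ ⟨h, v, hv, rfl⟩
    have k1 : g • v = v := ((mem_eig hg 1 v).1 hv).trans (one_smul _ _)
    have k2 : g • x • v = x • v := ((mem_eig hg 1 _).1 h).trans (one_smul _ _)
    refine (mem_eig _ _ _).2 ?_
    change ⁅g, x⁆ • x • v = (1 : K) • x • v
    rw [one_smul, commutatorElement_def, mul_smul, inv_smul_smul, mul_smul,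
      inv_smul_eq_iff.2 k1.symm, mul_smul, k2]
  have h6 := Submodule.finrank_mono h5
  omega

theorem jobFIX : JobFIX := by
  intro K G V W _ _ _ _ _ _ _ _ _ _ _ _ _ s N π c g hg hz
  have hg' : ∀ z ∈ s.ι.range, z * g = g * z := hg
  rw [card_fix hg']
  exact Nat.pow_le_pow_right Nat.card_pos (fixC c hg' hz)

end H84.VcFix
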